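import Mathlib
import Cfsg.Agent.Lib.Helper44.SPStmt
import Cfsg.Agent.S2568

set_option autoImplicit false

/-! S2720 piece [SELFREC]: an irreducible factor of even degree of `X ^ r - 1` is
self-reciprocal. -/

namespace Cfsg.Agent.Lib.Helper5.SPSELFREC

open Polynomial

universe u

theorem main : Cfsg.Agent.Lib.Helper44.SPStmt.SelfRec.{u} := by
  classical
  intro F _ _ p _ _ r hr hrp P hirr hmon hdvd hne hev
  haveI : Fact r.Prime := ⟨hr⟩
  have hp : p.Prime := Fact.out
  obtain ⟨f, -, hf⟩ := FiniteField.card F p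
  -- order of q mod r
  have hq0 : ((Fintype.card F : ℕ) : ZMod r) ≠ 0 := by
    rw [Ne, ZMod.natCast_eq_zero_iff, hf]
    intro h
    exact hrp ((Nat.prime_dvd_prime_iff_eq hr hp).mp (hr.dvd_of_dvd_pow h))
  have hidvd : orderOf ((Fintype.card F : ℕ) : ZMod r) ∣ r - 1 :=
    orderOf_dvd_of_pow_eq_one (ZMod.pow_card_sub_one_eq_one hq0)
  obtain ⟨t, ht⟩ := hidvd
  obtain ⟨S, -, -, hS, hall⟩ := Cfsg.Agent.S2568.cyclo_facts (F := F) (p := p) r
    (orderOf ((Fintype.card F : ℕ) : ZMod r)) t hr hrp rfl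
    (by rw [ht, mul_comm])
  obtain ⟨e, he⟩ := hev
  have hord : orderOf ((Fintype.card F : ℕ) : ZMod r) = e + e := by
    rcases (hall P hirr hmon).mp hdvd with h | h
    · exact absurd h hne
    · rw [← he]
      exact ((hS P h).2.2).symm
  have he1 : 1 ≤ e := by
    have := hirr.natDegree_pos
    omega
  -- q ^ e = -1 mod r
  have hqe : ((Fintype.card F : ℕ) : ZMod r) ^ e = -1 := by
    have h1 : (((Fintype.card F : ℕ) : ZMod r) ^ e) ^ 2 = 1 := by
      rw [← pow_mul, mul_two, ← hord]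
      exact pow_orderOf_eq_one _
    have h3 : ((Fintype.card F : ℕ) : ZMod r) ^ e ≠ 1 := by
      intro h
      have := orderOf_dvd_of_pow_eq_one h
      rw [hord] at this
      have := Nat.le_of_dvd (by omega) this
      omega
    have h4 : (((Fintype.card F : ℕ) : ZMod r) ^ e - 1) *
        (((Fintype.card F : ℕ) : ZMod r) ^ e + 1) = 0 := by
      ring_nf
      ring_nf at h1
      rw [h1]
      ring
    rcases mul_eq_zero.mp h4 with h | h
    · exact absurd (sub_eq_zero.mp h) h3
    · exact eq_neg_of_add_eq_zero_left h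
  have hrdvd : r ∣ Fintype.card F ^ e + 1 := by
    rw [← ZMod.natCast_eq_zero_iff]
    push_cast
    rw [hqe]
    ring
  exact (Cfsg.Agent.Lib.Helper40.RecipPoly.rstar_eq_iff (F := F) (p := p) (RingHom.id F) 1 0
    (pow_zero p).symm (fun x => by simp) (fun x => rfl) r hr P hirr hmon hne hdvd).mpr ⟨e, hrdvd⟩

end Cfsg.Agent.Lib.Helper5.SPSELFREC
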