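import Mathlib
import Cfsg.Agent.Lib.Helper25.ACStmt

/-!
# S3912 / TWOTYPE (helper5)

`N` of order 2 containing all involutions and all commutators, `4 ∣ #X`: `X` is abelian or
`X = P H` with `P` nonabelian of order 8 and `H` abelian of odd order centralizing `P`.
-/

set_option autoImplicit false

universe u

namespace Cfsg.Agent.Lib.Helper5.ACTWOTYPE

open Cfsg.Agent.Lib.Helper25.ACStmt

theorem main (hA : SplitA.{u}) (hB : SplitB.{u}) (hP : P2Struct.{u}) : TwoType.{u} := by
  intro X _ _ N hN2 hord hcomm h4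
  classical
  obtain ⟨P⟩ : Nonempty (Sylow 2 X) := inferInstance
  obtain ⟨H, hHc, hHab, hcard, hprod⟩ := hA X 2 N hN2 hcomm P
  have hHP : ∀ h ∈ H, ∀ x ∈ (P : Subgroup X), h * x = x * h := by
    intro h hh x hx
    refine hB X 2 N hN2 hord hcomm h4 P h ?_ x hx
    exact Nat.Coprime.coprime_dvd_left (Subgroup.orderOf_dvd_natCard H hh) hHc
  have hHodd : Odd (Nat.card ↥H) := Nat.coprime_two_right.mp hHc
  by_cases hab : ∀ a ∈ (P : Subgroup X), ∀ b ∈ (P : Subgroup X), a * b = b * a
  · left
    intro x y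
    obtain ⟨p, hp, h, hh, rfl⟩ := hprod x
    obtain ⟨p', hp', h', hh', rfl⟩ := hprod y
    have e1 := hab p hp p' hp'
    have e2 := hHab h hh h' hh'
    have e3 := hHP h hh p' hp'
    have e4 := hHP h' hh' p hp
    calc p * h * (p' * h') = p * (h * p') * h' := by group
      _ = p * (p' * h) * h' := by rw [e3]
      _ = (p * p') * (h * h') := by group
      _ = (p' * p) * (h' * h) := by rw [e1, e2]
      _ = p' * (p * h') * h := by group
      _ = p' * (h' * p) * h := by rw [e4]
      _ = p' * h' * (p * h) := by group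
  · right
    have hab' : ∃ a ∈ (P : Subgroup X), ∃ b ∈ (P : Subgroup X), a * b ≠ b * a := by
      by_contra hc
      apply hab
      intro a ha b hb
      by_contra hne
      exact hc ⟨a, ha, b, hb, hne⟩
    obtain ⟨a, ha, b, hb, hne⟩ := hab'
    have hz₀N : a * b * a⁻¹ * b⁻¹ ∈ N := hcomm a b
    have hz₀P : a * b * a⁻¹ * b⁻¹ ∈ (P : Subgroup X) :=
      (P : Subgroup X).mul_mem ((P : Subgroup X).mul_mem ((P : Subgroup X).mul_mem ha hb)
        ((P : Subgroup X).inv_mem ha)) ((P : Subgroup X).inv_mem hb)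
    have hz₀1 : a * b * a⁻¹ * b⁻¹ ≠ 1 := by
      intro h1
      apply hne
      have e : a * b = (a * b * a⁻¹ * b⁻¹) * (b * a) := by group
      rw [e, h1, one_mul]
    have hNel : ∀ n ∈ N, n = 1 ∨ n = a * b * a⁻¹ * b⁻¹ := by
      intro n hn
      by_cases hn1 : n = 1
      · exact Or.inl hn1
      · right
        obtain ⟨y, hy, hyu⟩ := (Nat.card_eq_two_iff' (1 : ↥N)).mp hN2
        have e1 : (⟨n, hn⟩ : ↥N) = y := hyu _ (fun h => hn1 (congrArg Subtype.val h))
        have e2 : (⟨a * b * a⁻¹ * b⁻¹, hz₀N⟩ : ↥N) = y :=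
          hyu _ (fun h => hz₀1 (congrArg Subtype.val h))
        exact congrArg Subtype.val (e1.trans e2.symm)
    have h8 : Nat.card ↥(P : Subgroup X) = 8 := by
      refine hP ↥(P : Subgroup X) P.isPGroup' ⟨a * b * a⁻¹ * b⁻¹, hz₀P⟩ ?_ ?_ ?_
        ⟨⟨a, ha⟩, ⟨b, hb⟩, ?_⟩
      · intro h
        exact hz₀1 (congrArg Subtype.val h)
      · intro x hx
        by_cases hx1 : x = 1
        · exact Or.inl hx1
        · right
          have hxX : (x : X) ^ 2 = 1 := by
            have h := congrArg Subtype.val hx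
            simpa using h
          have hxX1 : (x : X) ≠ 1 := fun h => hx1 (Subtype.ext h)
          have ho : orderOf (x : X) = 2 := orderOf_eq_prime hxX hxX1
          rcases hNel _ (hord _ ho) with h | h
          · exact absurd h hxX1
          · exact Subtype.ext h
      · intro c d
        rcases hNel _ (hcomm (c : X) (d : X)) with h | h
        · left
          exact Subtype.ext h
        · right
          exact Subtype.ext h
      · intro h
        exact hne (congrArg Subtype.val h)
    refine ⟨(P : Subgroup X), H, h8, ⟨a, ha, b, hb, hne⟩, hHodd, hHab, hHP, hprod, ?_⟩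
    rw [← hcard, h8]

end Cfsg.Agent.Lib.Helper5.ACTWOTYPE
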