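import Mathlib
import Cfsg.Agent.Lib.Helper45.GMStmt
import Cfsg.Agent.Lib.Helper44.OMat
import Cfsg.Agent.Lib.Helper45.OmegaAutKer

set_option autoImplicit false

/-! S2719 piece [DR] (generic form): if `-1 ∈ Ω`, a product of two reflections whose values have a
non-square product is a similarity with `det = μ^k` inducing a non-inner automorphism. Port of
`Helper82.GADR` to the generic infrastructure of helper45. -/

namespace Cfsg.Agent.Lib.Helper5.GMDR

open Matrix Module QuadraticMap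
open Cfsg.Agent.Lib.Helper44.QSpace Cfsg.Agent.Lib.Helper44.NegPairs
open Cfsg.Agent.Lib.Helper45.OmegaAut Cfsg.Agent.Lib.Helper45.OmegaAutPsi
  Cfsg.Agent.Lib.Helper45.OmegaAutMain Cfsg.Agent.Lib.Helper45.OmegaInndiag
open Cfsg.Agent.Lib.Helper44.MFldStmt
open Cfsg.Agent.Lib.Helper44.OGroup Cfsg.Agent.Lib.Helper44.OMat

universe u

theorem main : Cfsg.Agent.Lib.Helper45.GMStmt.RotNotInnG.{u} := by
  intro F _ _ ι _ _ Q h2 hS hcard hneg v₀ hv₀ k hk u u' hu hu' hns
  have hcard2 : 2 ≤ Fintype.card ι := by omega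
  have hdM : (((rfl' Q u * rfl' Q u' : ↥(Cfsg.Geo.quadSimilarityGroup (F := F) ⇑Q)) : GL ι F) :
      Matrix ι ι F) =
      Cfsg.reflectionMatrix (⇑Q) u * Cfsg.reflectionMatrix (⇑Q) u' := by
    apply matrix_ext_mulVec
    intro x
    have e : (((rfl' Q u * rfl' Q u' : ↥(Cfsg.Geo.quadSimilarityGroup (F := F) ⇑Q)) : GL ι F) :
        Matrix ι ι F) =
        (((rfl' Q u : ↥(Cfsg.Geo.quadSimilarityGroup (F := F) ⇑Q)) : GL ι F) : Matrix ι ι F) *
        (((rfl' Q u' : ↥(Cfsg.Geo.quadSimilarityGroup (F := F) ⇑Q)) : GL ι F) : Matrix ι ι F) :=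
      rfl
    rw [e, ← Matrix.mulVec_mulVec, ← Matrix.mulVec_mulVec, rfl'_mulVec, rfl'_mulVec,
      reflection_mulVec, reflection_mulVec]
  refine ⟨rfl' Q u * rfl' Q u', hdM, ?_, ?_⟩
  · rw [map_mul, dl_rfl' Q hv₀ k hu, dl_rfl' Q hv₀ k hu', neg_mul_neg, one_mul]
  · intro hin
    rw [inn_eq] at hin
    obtain ⟨s₀, hs₀⟩ := hin
    have h1 : Phi (⇑Q) (rfl' Q u * rfl' Q u' * (inclΩ (⇑Q) s₀)⁻¹) = 1 := by
      rw [map_mul, map_inv, ← hs₀, MonoidHom.comp_apply, mul_inv_cancel]
    obtain ⟨lam, hlam⟩ := Cfsg.Agent.Lib.Helper45.OmegaAutKer.scalar_of_Phi_eq_one h2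
      Q hS hcard (rfl' Q u * rfl' Q u' * (inclΩ (⇑Q) s₀)⁻¹) h1
    obtain ⟨S, hSdef⟩ : ∃ S : Matrix ι ι F,
        S = (((s₀ : ↥(Cfsg.isometryGroup F (⇑Q))) : GL ι F) : Matrix ι ι F) := ⟨_, rfl⟩
    obtain ⟨D, hD⟩ : ∃ D : Matrix ι ι F,
        D = Cfsg.reflectionMatrix (⇑Q) u * Cfsg.reflectionMatrix (⇑Q) u' := ⟨_, rfl⟩
    rw [← hD] at hdM
    have hDrefl : ∀ x, D *ᵥ x = (([u, u'] : List (ι → F)).map (reflE Q)).prod x := by
      intro x
      rw [hD, ← prod_reflection_mulVec Q [u, u'] x]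
      simp only [List.map_cons, List.map_nil, List.prod_cons, List.prod_nil, mul_one]
    have hvs : ∀ v ∈ ([u, u'] : List (ι → F)), Q v ≠ 0 := by
      intro v hv
      rw [List.mem_cons, List.mem_cons] at hv
      rcases hv with rfl | rfl | hv
      · exact hu
      · exact hu'
      · exact absurd hv (List.not_mem_nil)
    have hcrit := exists_mem_omega_iff h2 Q hS hcard2 D [u, u'] hvs hDrefl
    have hno : ¬ ∃ g : ↥(Cfsg.isometryGroup F (⇑Q)),
        g ∈ Cfsg.Omega F (⇑Q) ∧ ((g : GL ι F) : Matrix ι ι F) = D := by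
      intro hg
      have h3 := (hcrit.mp hg).2
      simp only [List.map_cons, List.map_nil, List.prod_cons, List.prod_nil, mul_one] at h3
      exact hns h3
    have e1 : ∀ x, D *ᵥ x = lam • (S *ᵥ x) := by
      intro x
      have hgG : D =
          (((rfl' Q u * rfl' Q u' * (inclΩ (⇑Q) s₀)⁻¹ :
            ↥(Cfsg.Geo.quadSimilarityGroup (F := F) ⇑Q)) : GL ι F) : Matrix ι ι F) * S := by
        have h3 : rfl' Q u * rfl' Q u' = (rfl' Q u * rfl' Q u' * (inclΩ (⇑Q) s₀)⁻¹) *
            inclΩ (⇑Q) s₀ := (inv_mul_cancel_right (rfl' Q u * rfl' Q u') _).symm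
        rw [← hdM]
        conv_lhs => rw [h3]
        rw [hSdef]
        rfl
      conv_lhs => rw [hgG]
      rw [← Matrix.mulVec_mulVec]
      exact hlam _
    have hSiso : ∀ x, Q (S *ᵥ x) = Q x := by
      intro x
      rw [hSdef]
      exact s₀.1.2 x x
    have hDiso : ∀ x, Q (D *ᵥ x) = Q x := by
      intro x
      rw [hDrefl]
      simp only [List.map_cons, List.map_nil, List.prod_cons, List.prod_nil, mul_one]
      show Q (reflE Q u (reflE Q u' x)) = Q x
      rw [reflE_mem Q u, reflE_mem Q u']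
    have hsm : ∀ (a : F) (y : ι → F), Q (a • y) = a ^ 2 * Q y := by
      intro a y
      have h := QuadraticMap.map_smul Q a y
      rw [smul_eq_mul] at h
      rw [pow_two]
      exact h
    have e2 : (1 : F) = lam ^ 2 := by
      have h : Q (D *ᵥ u) = Q (lam • (S *ᵥ u)) := by rw [e1 u]
      rw [hsm, hDiso, hSiso] at h
      have h' : (1 - lam ^ 2) * Q u = 0 := by rw [sub_mul, one_mul, ← h, sub_self]
      rcases mul_eq_zero.mp h' with h'' | h''
      · exact sub_eq_zero.mp h''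
      · exact absurd h'' hu
    have e3 : lam = 1 ∨ lam = -1 := by
      have h : (lam - 1) * (lam + 1) = 0 := by
        have : (lam - 1) * (lam + 1) = lam ^ 2 - 1 := by ring
        rw [this, ← e2, sub_self]
      rcases mul_eq_zero.mp h with h | h
      · left
        exact sub_eq_zero.mp h
      · right
        exact eq_neg_of_add_eq_zero_left h
    rcases e3 with h | h
    · apply hno
      refine ⟨s₀.1, s₀.2, ?_⟩
      rw [← hSdef]
      apply matrix_ext_mulVec
      intro x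
      rw [e1 x, h, one_smul]
    · obtain ⟨g, hgΩ, hgM⟩ := hneg
      apply hno
      refine ⟨g * s₀.1, mul_mem hgΩ s₀.2, ?_⟩
      have hmul : (((g * s₀.1 : ↥(Cfsg.isometryGroup F (⇑Q))) : GL ι F) : Matrix ι ι F) =
          ((g : GL ι F) : Matrix ι ι F) * S := by
        rw [hSdef]
        rfl
      rw [hmul, hgM]
      apply matrix_ext_mulVec
      intro x
      rw [e1 x, h, neg_smul, one_smul, Matrix.neg_mul, Matrix.one_mul, Matrix.neg_mulVec]

end Cfsg.Agent.Lib.Helper5.GMDR
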