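import Mathlib
import Cfsg.Agent.Lib.Helper45.GMStmt
import Cfsg.Agent.Lib.Helper79.GALB

set_option autoImplicit false

/-! S2719 piece [LB] (generic form): if `-1 ∈ Ω`, a similarity `g` with `det g ≠ μ^k` does not
centralise `D0 / Inn`. Port of `Helper79.GALB` to the generic infrastructure of helper45. -/

namespace Cfsg.Agent.Lib.Helper5.GMLB

open Matrix Module QuadraticMap
open Cfsg.Agent.Lib.Helper44.QSpace Cfsg.Agent.Lib.Helper44.NegPairs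
open Cfsg.Agent.Lib.Helper45.OmegaAut Cfsg.Agent.Lib.Helper45.OmegaAutPsi
  Cfsg.Agent.Lib.Helper45.OmegaAutMain Cfsg.Agent.Lib.Helper45.OmegaInndiag
open Cfsg.Agent.Lib.Helper44.MFldStmt

universe u

/-- relative index four: commutators of `D` lie in the normal subgroup `I` -/
theorem comm_mem_of_relIndex_four {G : Type*} [Group G] (D I : Subgroup G) [I.Normal]
    (h : I.relIndex D = 4) (d1 d2 : G) (h1 : d1 ∈ D) (h2 : d2 ∈ D) :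
    d1 * d2 * (d2 * d1)⁻¹ ∈ I := by
  have hc : Nat.card (↥D ⧸ I.subgroupOf D) = 2 ^ 2 := by
    rw [← Subgroup.index_eq_card]
    exact h
  haveI : Fact (Nat.Prime 2) := ⟨Nat.prime_two⟩
  have hcomm := IsPGroup.commutative_of_card_eq_prime_sq hc
  have h3 : (((⟨d1, h1⟩ : ↥D) * ⟨d2, h2⟩ * (⟨d2, h2⟩ * ⟨d1, h1⟩)⁻¹ : ↥D) :
      ↥D ⧸ I.subgroupOf D) = 1 := by
    rw [QuotientGroup.mk_mul, QuotientGroup.mk_inv, QuotientGroup.mk_mul, QuotientGroup.mk_mul,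
      hcomm (QuotientGroup.mk ⟨d2, h2⟩), mul_inv_cancel]
  rw [QuotientGroup.eq_one_iff, Subgroup.mem_subgroupOf] at h3
  exact h3

theorem main : Cfsg.Agent.Lib.Helper45.GMStmt.LowerB.{u} := by
  intro F _ _ ι _ _ Q h2 hS v₀ hv₀ k hk hn hδ hneg g hg
  obtain ⟨φ, hφs, hφk⟩ :=
    Cfsg.Agent.Lib.Helper45.OmegaAutD8.pgo_mod_inn_of_mem Q h2 hS hk hn hδ hneg
  haveI hKn : (Cfsg.Inn (Cfsg.POmega F ⇑Q)).Normal :=
    ⟨fun d hd c => (Cfsg.Agent.Lib.Helper44.GFFin.inn_conj_iff c d).1 hd⟩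
  have hA := pgo_eq (F := F) (⇑Q)
  have hgm : dl Q hv₀ k g = -1 := (dl_pm Q hv₀ hS hk g).resolve_left hg
  refine Cfsg.Agent.Lib.Helper79.GALB.abstract_lb (Cfsg.pgoAut F ⇑Q) (D0 Q hv₀ k)
    (Cfsg.Inn (Cfsg.POmega F ⇑Q)) (Phi ⇑Q g) hKn (D0_le_pgo Q hv₀ k) ?_ ?_ ?_ ?_ φ hφs hφk
  · exact (inn_le_D0 Q hv₀ k).trans (D0_le_pgo Q hv₀ k)
  · rw [hA]
    exact ⟨g, rfl⟩
  · intro y hy
    rw [hA] at hy
    obtain ⟨h, rfl⟩ := hy
    rcases dl_pm Q hv₀ hS hk h with hh | hh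
    · left
      exact ⟨h, (mem_G0 Q hv₀ k h).mpr hh, rfl⟩
    · right
      refine ⟨h * g⁻¹, (mem_G0 Q hv₀ k _).mpr ?_, by rw [map_mul, map_inv]⟩
      rw [map_mul, map_inv, hh, hgm, mul_inv_cancel]
  · intro d1 hd1 d2 hd2
    exact comm_mem_of_relIndex_four _ _ ((relIndex_inn_D0 Q h2 hS hv₀ hk hn hδ).1 hneg)
      d1 d2 hd1 hd2

end Cfsg.Agent.Lib.Helper5.GMLB
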