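import Mathlib
import Cfsg.Agent.Lib.Helper44.MCentStmt
import Cfsg.Agent.Lib.Helper44.Omega2
import Cfsg.Agent.Lib.Helper44.OMat
import Cfsg.Agent.Lib.Helper45.OmegaAutKer
import Cfsg.Agent.Lib.Helper98.MFldII2

/-!
# S2716, piece RDT: characteristic two, every similarity of the minus form is
`Ω · (σ-rational similarity)` modulo the kernel of `Phi`
-/

set_option autoImplicit false

namespace Cfsg.Agent.Lib.Helper5.MCentRDT

open Matrix Module QuadraticMap
open Cfsg.Agent.Lib.Helper45.OmegaAut Cfsg.Agent.Lib.Helper43.H90Fin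
open Cfsg.Agent.Lib.Helper44.MFld0 Cfsg.Agent.Lib.Helper44.MaxTS
  Cfsg.Agent.Lib.Helper44.NegPairs Cfsg.Agent.Lib.Helper44.QSpace
  Cfsg.Agent.Lib.Helper44.QClass
open Cfsg.Agent.Lib.Helper44.MFldStmt Cfsg.Agent.Lib.Helper44.OMat Cfsg.Agent.Lib.Helper44.OGroup
open Cfsg.Agent.Lib.Helper98.MFldII2

universe u

section fixed

variable {F : Type u} [Field F]

/-- the minus form commutes with a field automorphism fixing its parameters -/
theorem minus_invS (m : ℕ) (a b : F) (σ : RingAut F) (ha : σ a = a) (hb : σ b = b)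
    (v : MI m → F) :
    Cfsg.quadFormMinus m F a b (fun k => σ (v k)) = σ (Cfsg.quadFormMinus m F a b v) := by
  unfold Cfsg.quadFormMinus
  simp only [map_add, map_sum, map_mul, map_pow, ha, hb]

theorem minus_fixed (m : ℕ) (a b : F) (σ : RingAut F) (ha : σ a = a) (hb : σ b = b)
    (v : MI m → F) (hv : ∀ k, σ (v k) = v k) :
    σ (Cfsg.quadFormMinus m F a b v) = Cfsg.quadFormMinus m F a b v := by
  rw [← minus_invS m a b σ ha hb v]
  congr 1
  funext k
  exact hv k

theorem single_fixed (m : ℕ) (σ : RingAut F) (i k : MI m) :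
    σ ((Pi.single i (1 : F) : MI m → F) k) = (Pi.single i (1 : F) : MI m → F) k := by
  by_cases h : k = i
  · subst h
    simp
  · rw [Pi.single_eq_of_ne h, map_zero]

/-- the matrix of the reflection in a basis vector is rational -/
theorem refl_map_fixed (m : ℕ) (a b : F) (σ : RingAut F) (ha : σ a = a) (hb : σ b = b)
    (i₀ : MI m) :
    (Cfsg.reflectionMatrix (Cfsg.quadFormMinus m F a b) (Pi.single i₀ 1)).map σ =
      Cfsg.reflectionMatrix (Cfsg.quadFormMinus m F a b) (Pi.single i₀ 1) := by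
  ext i k
  have h1 : σ (Cfsg.quadFormMinus m F a b (Pi.single i₀ 1)) =
      Cfsg.quadFormMinus m F a b (Pi.single i₀ 1) :=
    minus_fixed m a b σ ha hb _ (fun k => single_fixed m σ i₀ k)
  have h2 : σ (Cfsg.quadFormMinus m F a b (Pi.single k 1)) =
      Cfsg.quadFormMinus m F a b (Pi.single k 1) :=
    minus_fixed m a b σ ha hb _ (fun j => single_fixed m σ k j)
  have h3 : σ (Cfsg.quadFormMinus m F a b (Pi.single i₀ 1 + Pi.single k 1)) =
      Cfsg.quadFormMinus m F a b (Pi.single i₀ 1 + Pi.single k 1) := by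
    apply minus_fixed m a b σ ha hb
    intro j
    rw [Pi.add_apply, map_add, single_fixed, single_fixed]
  have h4 : σ ((1 : Matrix (MI m) (MI m) F) i k) = (1 : Matrix (MI m) (MI m) F) i k := by
    by_cases h : i = k
    · subst h
      simp
    · rw [Matrix.one_apply_ne h, map_zero]
  unfold Cfsg.reflectionMatrix Cfsg.polarVec QuadraticMap.polar
  simp only [Matrix.map_apply, Matrix.sub_apply, Matrix.smul_apply, Matrix.vecMulVec_apply,
    smul_eq_mul, map_sub, map_mul, map_inv₀, h1, h2, h3, h4, single_fixed]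

end fixed

set_option maxHeartbeats 1600000 in
theorem main (hS : SepMinus.{u}) : Cfsg.Agent.Lib.Helper44.MCentStmt.RatDecompTwo.{u} := by
  intro F _ _ m hm a b hab h2 σ hσa hσb g
  classical
  have : CharP F 2 := CharTwo.of_one_ne_zero_of_two_eq_zero one_ne_zero h2
  have : Nonempty (MI m) := ⟨Sum.inr 0⟩
  have hSep : Sep (minusQ m F a b) := hS F m a b hab
  have hfin : finrank F (MI m → F) ≠ 4 := by
    rw [Module.finrank_fintype_fun_eq_card]
    simp only [Fintype.card_sum, Fintype.card_fin]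
    omega
  have hGood := Cfsg.Agent.Lib.Helper44.Omega2.good_of_card hSep (Or.inr hfin)
  have hidx := Cfsg.Agent.Lib.Helper44.Omega2.index_commutator_two hSep hGood
  have hmul : ∀ x y : ↥(Cfsg.isometryGroup F ⇑(minusQ m F a b)),
      x ∉ Cfsg.Omega F ⇑(minusQ m F a b) → y ∉ Cfsg.Omega F ⇑(minusQ m F a b) →
      x * y ∈ Cfsg.Omega F ⇑(minusQ m F a b) := by
    intro x y hx hy
    rw [mem_omega_iff] at hx hy ⊢
    rw [map_mul, Subgroup.mul_mem_iff_of_index_two hidx]
    exact ⟨fun h => absurd h hx, fun h => absurd h hy⟩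
  -- split off a scalar
  obtain ⟨c, hc⟩ := g.2
  have hsq : IsSquare (c : F) :=
    FiniteField.isSquare_of_char_two (ringChar.eq_iff.mpr inferInstance) (c : F)
  obtain ⟨l, hl⟩ := hsq
  have hl0 : l ≠ 0 := by
    rintro rfl
    rw [mul_zero] at hl
    exact c.ne_zero hl
  let z : GOq (Cfsg.quadFormMinus m F a b) :=
    ⟨scalGL l hl0, scalGL_mem (minusQ m F a b) l hl0⟩
  let o : GOq (Cfsg.quadFormMinus m F a b) := z⁻¹ * g
  have ho : (o : GL (MI m) F) ∈ Cfsg.isometryGroup F (Cfsg.quadFormMinus m F a b) := by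
    rw [mem_iso_iff']
    intro v
    show Cfsg.quadFormMinus m F a b
      ((((scalGL l hl0)⁻¹ * (g : GL (MI m) F) : GL (MI m) F) : Matrix (MI m) (MI m) F) *ᵥ v) = _
    rw [Units.val_mul, ← Matrix.mulVec_mulVec, scalGL_inv_mulVec]
    have h3 : (minusQ m F a b) (l⁻¹ • (((g : GL (MI m) F) : Matrix (MI m) (MI m) F) *ᵥ v)) =
        (l⁻¹ * l⁻¹) • (minusQ m F a b) (((g : GL (MI m) F) : Matrix (MI m) (MI m) F) *ᵥ v) :=
      QuadraticMap.map_smul _ _ _
    have h4 : (minusQ m F a b) (((g : GL (MI m) F) : Matrix (MI m) (MI m) F) *ᵥ v) =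
        (c : F) * (minusQ m F a b) v := hc v
    show (minusQ m F a b) (l⁻¹ • (((g : GL (MI m) F) : Matrix (MI m) (MI m) F) *ᵥ v)) =
      (minusQ m F a b) v
    rw [h3, h4, hl, smul_eq_mul]
    field_simp
  have e1 : g = z * o := by
    show g = z * (z⁻¹ * g)
    group
  have e2 : Phi (Cfsg.quadFormMinus m F a b) z = 1 :=
    Cfsg.Agent.Lib.Helper45.OmegaAutKer.Phi_eq_one_of_scalar _ z l
      (fun x => scalGL_mulVec l hl0 x)
  let o₀ : ↥(Cfsg.isometryGroup F (Cfsg.quadFormMinus m F a b)) := ⟨(o : GL (MI m) F), ho⟩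
  let ι₀ : ↥(Cfsg.isometryGroup F (Cfsg.quadFormMinus m F a b)) →*
      GOq (Cfsg.quadFormMinus m F a b) := Subgroup.inclusion (iso_le_GO _)
  by_cases hoΩ : o₀ ∈ Cfsg.Omega F (Cfsg.quadFormMinus m F a b)
  · -- the isometry part lies in `Ω`
    refine ⟨⟨o₀, hoΩ⟩, 1, ?_, ?_⟩
    · show ((1 : GL (MI m) F) : Matrix (MI m) (MI m) F).map σ =
        ((1 : GL (MI m) F) : Matrix (MI m) (MI m) F)
      rw [Units.val_one]
      exact Matrix.map_one σ (map_zero σ) (map_one σ)
    · have e3 : inclΩ (Cfsg.quadFormMinus m F a b) ⟨o₀, hoΩ⟩ = o := rfl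
      rw [e3, map_one, mul_one]
      conv_lhs => rw [e1]
      rw [map_mul, e2, one_mul]
  · -- otherwise multiply by the reflection in a rational vector
    let e : MI m → F := Pi.single (Sum.inr 0) 1
    have he : (minusQ m F a b) e = 1 := by
      show Cfsg.quadFormMinus m F a b (Pi.single (Sum.inr 0) 1) = 1
      unfold Cfsg.quadFormMinus
      simp
    have he0 : (minusQ m F a b) e ≠ 0 := by
      rw [he]
      exact one_ne_zero
    let ρ₀ : ↥(Cfsg.isometryGroup F (Cfsg.quadFormMinus m F a b)) :=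
      (isoEquiv (minusQ m F a b)).symm (refl (minusQ m F a b) e)
    have hρmat : (((ρ₀ : GL (MI m) F)) : Matrix (MI m) (MI m) F) =
        Cfsg.reflectionMatrix (Cfsg.quadFormMinus m F a b) e := by
      apply matrix_ext_mulVec
      intro x
      exact (isoEquiv_symm_mulVec (minusQ m F a b) (refl (minusQ m F a b) e) x).trans
        (reflection_mulVec (minusQ m F a b) e x).symm
    have hρΩ : ρ₀ ∉ Cfsg.Omega F (Cfsg.quadFormMinus m F a b) := by
      intro h
      have h' : isoEquiv (minusQ m F a b) ρ₀ ∈ commutator ↥(O (minusQ m F a b)) :=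
        (mem_omega_iff (minusQ m F a b) ρ₀).mp h
      have h'' : refl (minusQ m F a b) e ∈ commutator (O (minusQ m F a b)) := by
        have e5 : (isoEquiv (minusQ m F a b)) ρ₀ = refl (minusQ m F a b) e :=
          MulEquiv.apply_symm_apply _ _
        rw [← e5]
        exact h'
      have h6 := (Cfsg.Agent.Lib.Helper44.Omega2.mem_commutator_iff_two hSep hGood [e]
        (by
          intro v hv
          rw [List.mem_singleton] at hv
          rw [hv]
          exact he0)).mp (by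
          rw [List.map_cons, List.map_nil, List.prod_cons, List.prod_nil, mul_one]
          exact h'')
      rw [List.length_singleton] at h6
      exact Nat.not_even_one h6
    have hρinv : ρ₀⁻¹ ∉ Cfsg.Omega F (Cfsg.quadFormMinus m F a b) := by
      intro h
      exact hρΩ (by simpa using (Cfsg.Omega F (Cfsg.quadFormMinus m F a b)).inv_mem h)
    have hω : o₀ * ρ₀⁻¹ ∈ Cfsg.Omega F (Cfsg.quadFormMinus m F a b) := hmul o₀ ρ₀⁻¹ hoΩ hρinv
    refine ⟨⟨o₀ * ρ₀⁻¹, hω⟩, ι₀ ρ₀, ?_, ?_⟩
    · show ((ρ₀ : GL (MI m) F) : Matrix (MI m) (MI m) F).map σ =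
        ((ρ₀ : GL (MI m) F) : Matrix (MI m) (MI m) F)
      rw [hρmat]
      exact refl_map_fixed m a b σ hσa hσb (Sum.inr 0)
    · have e3 : o = inclΩ (Cfsg.quadFormMinus m F a b) ⟨o₀ * ρ₀⁻¹, hω⟩ * ι₀ ρ₀ := by
        apply Subtype.ext
        show (o : GL (MI m) F) = ((o : GL (MI m) F) * (ρ₀ : GL (MI m) F)⁻¹) * (ρ₀ : GL (MI m) F)
        group
      conv_lhs => rw [e1]
      rw [map_mul, e2, one_mul, e3, map_mul]

end Cfsg.Agent.Lib.Helper5.MCentRDT
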