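import Mathlib
import Cfsg.Agent.Lib.Helper44.NegPairs
import Cfsg.Agent.Lib.Helper44.OMat
import Cfsg.Agent.Lib.Helper45.OmegaCenter
import Cfsg.Agent.Lib.Helper14.OrthIndex

set_option autoImplicit false

/-! An elementary abelian `2`-subgroup of order at least `2^(2m-1)` in `PΩ_{2m+1}(q)`, `q` odd:
the sign changes with respect to an orthogonal basis, intersected with `Ω`. -/

namespace Cfsg.Agent.Lib.Helper5.OddElemAb

open Cfsg.Agent.Lib.Helper44.NegPairs Cfsg.Agent.Lib.Helper44.OGroup Cfsg.Agent.Lib.Helper44.OMat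

variable {F : Type*} [Field F]

theorem unit_sq (u : ℤˣ) : (((u : ℤ) : F)) * ((u : ℤ) : F) = 1 := by
  rcases Int.units_eq_one_or u with rfl | rfl <;> simp

theorem unit_cast_inj (h2 : (2 : F) ≠ 0) {u v : ℤˣ} (h : ((u : ℤ) : F) = ((v : ℤ) : F)) :
    u = v := by
  rcases Int.units_eq_one_or u with rfl | rfl <;> rcases Int.units_eq_one_or v with rfl | rfl
  · rfl
  · exfalso
    apply h2
    simp only [Units.val_one, Units.val_neg, Int.cast_one, Int.cast_neg] at h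
    linear_combination h
  · exfalso
    apply h2
    simp only [Units.val_one, Units.val_neg, Int.cast_one, Int.cast_neg] at h
    linear_combination -h
  · rfl

/-- coordinates in an orthogonal basis -/
def Tfun (m : ℕ) (w : Unit ⊕ (Fin m ⊕ Fin m) → F) : Unit ⊕ (Fin m ⊕ Fin m) → F
  | .inl _ => w (.inl ())
  | .inr (.inl i) => w (.inr (.inl i)) + w (.inr (.inr i))
  | .inr (.inr i) => w (.inr (.inl i)) - w (.inr (.inr i))

/-- the inverse change of coordinates -/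
def Tinv (m : ℕ) (x : Unit ⊕ (Fin m ⊕ Fin m) → F) : Unit ⊕ (Fin m ⊕ Fin m) → F
  | .inl _ => x (.inl ())
  | .inr (.inl i) => (x (.inr (.inl i)) + x (.inr (.inr i))) / 2
  | .inr (.inr i) => (x (.inr (.inl i)) - x (.inr (.inr i))) / 2

/-- the change of coordinates as a linear equivalence -/
def T (h2 : (2 : F) ≠ 0) (m : ℕ) :
    (Unit ⊕ (Fin m ⊕ Fin m) → F) ≃ₗ[F] (Unit ⊕ (Fin m ⊕ Fin m) → F) where
  toFun := Tfun m
  map_add' x y := by
    funext j
    rcases j with _ | i | i <;> simp [Tfun] <;> ring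
  map_smul' c x := by
    funext j
    rcases j with _ | i | i <;> simp [Tfun] <;> ring
  invFun := Tinv m
  left_inv w := by
    funext j
    rcases j with _ | i | i <;> simp [Tfun, Tinv] <;> field_simp <;> ring
  right_inv x := by
    funext j
    rcases j with _ | i | i <;> simp [Tfun, Tinv] <;> field_simp <;> ring

theorem q_T (m : ℕ) (w : Unit ⊕ (Fin m ⊕ Fin m) → F) :
    Cfsg.quadFormOdd m F (Tfun m w) =
      w (.inl ()) ^ 2 + ∑ i : Fin m, (w (.inr (.inl i)) ^ 2 - w (.inr (.inr i)) ^ 2) := by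
  unfold Cfsg.quadFormOdd
  simp only [Tfun]
  congr 1
  apply Finset.sum_congr rfl
  intro i _
  ring

/-- sign changes -/
def dg (m : ℕ) (s : Unit ⊕ (Fin m ⊕ Fin m) → ℤˣ) :
    (Unit ⊕ (Fin m ⊕ Fin m) → F) ≃ₗ[F] (Unit ⊕ (Fin m ⊕ Fin m) → F) where
  toFun w := fun j => ((s j : ℤ) : F) * w j
  map_add' x y := by
    funext j
    simp [mul_add]
  map_smul' c x := by
    funext j
    simp only [Pi.smul_apply, smul_eq_mul, RingHom.id_apply]
    ring
  invFun w := fun j => ((s j : ℤ) : F) * w j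
  left_inv w := by
    funext j
    show ((s j : ℤ) : F) * (((s j : ℤ) : F) * w j) = w j
    rw [← mul_assoc, unit_sq, one_mul]
  right_inv w := by
    funext j
    show ((s j : ℤ) : F) * (((s j : ℤ) : F) * w j) = w j
    rw [← mul_assoc, unit_sq, one_mul]

theorem dg_apply (m : ℕ) (s : Unit ⊕ (Fin m ⊕ Fin m) → ℤˣ) (w : Unit ⊕ (Fin m ⊕ Fin m) → F)
    (j : Unit ⊕ (Fin m ⊕ Fin m)) : dg m s w j = ((s j : ℤ) : F) * w j := rfl

/-- the sign change in the original coordinates -/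
def gS (h2 : (2 : F) ≠ 0) (m : ℕ) (s : Unit ⊕ (Fin m ⊕ Fin m) → ℤˣ) :
    (Unit ⊕ (Fin m ⊕ Fin m) → F) ≃ₗ[F] (Unit ⊕ (Fin m ⊕ Fin m) → F) :=
  (T h2 m).symm.trans ((dg m s).trans (T h2 m))

theorem gS_apply (h2 : (2 : F) ≠ 0) (m : ℕ) (s : Unit ⊕ (Fin m ⊕ Fin m) → ℤˣ)
    (v : Unit ⊕ (Fin m ⊕ Fin m) → F) : gS h2 m s v = T h2 m (dg m s ((T h2 m).symm v)) := rfl

theorem q_gS (h2 : (2 : F) ≠ 0) (m : ℕ) (s : Unit ⊕ (Fin m ⊕ Fin m) → ℤˣ)
    (v : Unit ⊕ (Fin m ⊕ Fin m) → F) :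
    Cfsg.quadFormOdd m F (gS h2 m s v) = Cfsg.quadFormOdd m F v := by
  have hv : v = T h2 m ((T h2 m).symm v) := (LinearEquiv.apply_symm_apply _ _).symm
  conv_rhs => rw [hv]
  rw [gS_apply]
  show Cfsg.quadFormOdd m F (Tfun m (dg m s ((T h2 m).symm v)))
    = Cfsg.quadFormOdd m F (Tfun m ((T h2 m).symm v))
  rw [q_T, q_T]
  have key : ∀ (j : Unit ⊕ (Fin m ⊕ Fin m)) (w : F), (((s j : ℤ) : F) * w) ^ 2 = w ^ 2 :=
    fun j w => by rw [mul_pow, sq, unit_sq, one_mul]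
  simp only [dg_apply, key]

/-- the sign changes as a homomorphism into the orthogonal group -/
def φ (h2 : (2 : F) ≠ 0) (m : ℕ) : (Unit ⊕ (Fin m ⊕ Fin m) → ℤˣ) →* ↥(O (oddQ m F)) where
  toFun s := ⟨gS h2 m s, fun v => q_gS h2 m s v⟩
  map_one' := by
    apply Subtype.ext
    apply LinearEquiv.ext
    intro v
    show gS h2 m 1 v = v
    rw [gS_apply]
    have : dg m (1 : Unit ⊕ (Fin m ⊕ Fin m) → ℤˣ) ((T h2 m).symm v) = (T h2 m).symm v := by
      funext j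
      simp [dg_apply]
    rw [this, LinearEquiv.apply_symm_apply]
  map_mul' s t := by
    apply Subtype.ext
    apply LinearEquiv.ext
    intro v
    show gS h2 m (s * t) v = gS h2 m s (gS h2 m t v)
    rw [gS_apply, gS_apply, gS_apply, LinearEquiv.symm_apply_apply]
    congr 1
    funext j
    simp only [dg_apply, Pi.mul_apply, Units.val_mul, Int.cast_mul]
    ring

theorem φ_apply (h2 : (2 : F) ≠ 0) (m : ℕ) (s : Unit ⊕ (Fin m ⊕ Fin m) → ℤˣ)
    (v : Unit ⊕ (Fin m ⊕ Fin m) → F) :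
    ((φ h2 m s : ↥(O (oddQ m F))) :
      (Unit ⊕ (Fin m ⊕ Fin m) → F) ≃ₗ[F] (Unit ⊕ (Fin m ⊕ Fin m) → F)) v = gS h2 m s v := rfl

theorem φ_injective (h2 : (2 : F) ≠ 0) (m : ℕ) : Function.Injective (φ (F := F) h2 m) := by
  classical
  intro s t hst
  funext j
  apply unit_cast_inj h2
  have h1 := congrArg (fun g : ↥(O (oddQ m F)) =>
    ((g : (Unit ⊕ (Fin m ⊕ Fin m) → F) ≃ₗ[F] (Unit ⊕ (Fin m ⊕ Fin m) → F))
      (T h2 m (Pi.single j 1)))) hst
  simp only [φ_apply, gS_apply, LinearEquiv.symm_apply_apply] at h1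
  have h3 := congrFun ((T h2 m).injective h1) j
  simpa [dg_apply] using h3

theorem φ_sq (h2 : (2 : F) ≠ 0) (m : ℕ) (s : Unit ⊕ (Fin m ⊕ Fin m) → ℤˣ) :
    φ (F := F) h2 m s * φ h2 m s = 1 := by
  rw [← map_mul]
  have : s * s = 1 := by
    funext j
    exact Int.units_mul_self (s j)
  rw [this, map_one]

/-- an elementary abelian `2`-subgroup of order at least `2^(2m-1)` in `PΩ_{2m+1}(q)` -/
theorem exists_elemAb' [Fintype F] (h2 : (2 : F) ≠ 0) (m : ℕ) (hm : 2 ≤ m) :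
    ∃ E : Subgroup (Cfsg.POmega F ⇑(oddQ m F)),
      (∀ x ∈ E, x * x = 1) ∧ 2 ^ (2 * m - 1) ≤ Nat.card E := by
  classical
  have hS := sep_oddQ (F := F) h2 m
  have hcardι : Fintype.card (Unit ⊕ (Fin m ⊕ Fin m)) = 2 * m + 1 := by
    simp only [Fintype.card_sum, Fintype.card_fin, Fintype.card_unit]
    omega
  have hidx : (Cfsg.Omega F ⇑(oddQ m F)).index = 4 :=
    Cfsg.Agent.Lib.Helper14.OrthIndex.index_omega h2 (oddQ m F) hS (by rw [hcardι]; omega)
  have hc : Nat.card ↥(Subgroup.center ↥(Cfsg.Omega F ⇑(oddQ m F))) = 1 := by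
    apply Cfsg.Agent.Lib.Helper45.OmegaCenter.card_center_odd_of_not h2 (oddQ m F) hS
      (by rw [hcardι]; omega)
    rintro ⟨g, hg, hgm⟩
    have hdet := Cfsg.Agent.Lib.Helper45.OmegaCenter.det_of_mem_omega _ g hg
    rw [hgm, Matrix.det_neg, Matrix.det_one, mul_one, hcardι, pow_succ, pow_mul] at hdet
    apply h2
    have h3 : ((-1 : F) ^ 2) ^ m = 1 := by norm_num
    rw [h3] at hdet
    linear_combination -hdet
  let ψ : (Unit ⊕ (Fin m ⊕ Fin m) → ℤˣ) →* ↥(Cfsg.isometryGroup F ⇑(oddQ m F)) :=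
    (isoEquiv (oddQ m F)).symm.toMonoidHom.comp (φ h2 m)
  have hψ : Function.Injective ψ := (isoEquiv (oddQ m F)).symm.injective.comp (φ_injective h2 m)
  have hψsq : ∀ s, ψ s * ψ s = 1 := fun s => by
    rw [← map_mul]
    have : s * s = 1 := by
      funext j
      exact Int.units_mul_self (s j)
    rw [this, map_one]
  have hDcard : Nat.card ψ.range = 2 ^ (2 * m + 1) := by
    rw [← Nat.card_congr (MonoidHom.ofInjective hψ).toEquiv, Nat.card_eq_fintype_card,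
      Fintype.card_fun, Fintype.card_units_int, hcardι]
  have h1 : Nat.card ↥(Cfsg.Omega F ⇑(oddQ m F) ⊓ ψ.range) *
      (Cfsg.Omega F ⇑(oddQ m F)).relIndex ψ.range = Nat.card ψ.range := by
    have := Subgroup.card_mul_index ((Cfsg.Omega F ⇑(oddQ m F) ⊓ ψ.range).subgroupOf ψ.range)
    rw [Nat.card_congr (Subgroup.subgroupOfEquivOfLe inf_le_right).toEquiv,
      Subgroup.inf_subgroupOf_right] at this
    exact this
  have h2' : (Cfsg.Omega F ⇑(oddQ m F)).relIndex ψ.range ∣ 4 :=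
    hidx ▸ Subgroup.relIndex_dvd_index_of_normal (Cfsg.Omega F ⇑(oddQ m F)) ψ.range
  have h3 : (Cfsg.Omega F ⇑(oddQ m F)).relIndex ψ.range ≤ 4 := Nat.le_of_dvd (by norm_num) h2'
  have h4 : 2 ^ (2 * m + 1) ≤ 4 * Nat.card ↥(Cfsg.Omega F ⇑(oddQ m F) ⊓ ψ.range) := by
    rw [← hDcard, ← h1, mul_comm 4]
    exact Nat.mul_le_mul_left _ h3
  have hE₁card : Nat.card ((Cfsg.Omega F ⇑(oddQ m F) ⊓ ψ.range).subgroupOf
      (Cfsg.Omega F ⇑(oddQ m F))) = Nat.card ↥(Cfsg.Omega F ⇑(oddQ m F) ⊓ ψ.range) :=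
    Nat.card_congr (Subgroup.subgroupOfEquivOfLe inf_le_left).toEquiv
  have hbot : Subgroup.center ↥(Cfsg.Omega F ⇑(oddQ m F)) = ⊥ := Subgroup.card_eq_one.mp hc
  have hmkinj : Function.Injective
      (QuotientGroup.mk' (Subgroup.center ↥(Cfsg.Omega F ⇑(oddQ m F)))) := by
    rw [← MonoidHom.ker_eq_bot_iff, QuotientGroup.ker_mk', hbot]
  refine ⟨((Cfsg.Omega F ⇑(oddQ m F) ⊓ ψ.range).subgroupOf (Cfsg.Omega F ⇑(oddQ m F))).map
    (QuotientGroup.mk' (Subgroup.center ↥(Cfsg.Omega F ⇑(oddQ m F)))), ?_, ?_⟩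
  · rintro _ ⟨g, hg, rfl⟩
    have hgD : (g : ↥(Cfsg.isometryGroup F ⇑(oddQ m F))) ∈ ψ.range :=
      (Subgroup.mem_subgroupOf.mp hg).2
    obtain ⟨s, hs⟩ := hgD
    rw [← map_mul]
    have : g * g = 1 := Subtype.ext (by
      rw [Subgroup.coe_mul, ← hs]
      exact hψsq s)
    rw [this, map_one]
  · rw [Subgroup.card_map_of_injective hmkinj, hE₁card]
    have : 2 ^ (2 * m + 1) = 4 * 2 ^ (2 * m - 1) := by
      have : 2 * m + 1 = (2 * m - 1) + 2 := by omega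
      rw [this, pow_add]
      ring
    omega

/-- an elementary abelian `2`-subgroup of order at least `2^(2m-1)` in `PΩ_{2m+1}(q)` -/
theorem exists_elemAb [Fintype F] (h2 : (2 : F) ≠ 0) (m : ℕ) (hm : 2 ≤ m) :
    ∃ E : Subgroup (Cfsg.POmega F (Cfsg.quadFormOdd m F)),
      (∀ x ∈ E, x * x = 1) ∧ 2 ^ (2 * m - 1) ≤ Nat.card E :=
  exists_elemAb' h2 m hm

end Cfsg.Agent.Lib.Helper5.OddElemAb
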