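import Mathlib
import Cfsg.Agent.Lib.Helper98.PSpStmt
import Cfsg.Agent.Lib.Helper5.SL2Card
import Cfsg.Agent.S2475

set_option autoImplicit false

/-! S3421 piece [TOHYP]: a group with the order and the spectrum of `PSL(2, q)`, `q` odd,
satisfies `Hyp`. -/

namespace Cfsg.Agent.Lib.Helper5.PSpTOHYP

open Cfsg.Agent.Lib.Helper98.PSpStmt

universe u v

theorem mkHyp (G : Type u) [Group G] [Finite G] (p q m₁ m₂ : ℕ) (hpp : p.Prime) (hp2 : p ≠ 2)
    (hq : ∃ f : ℕ, q = p ^ f) (he : Even m₁) (ho : Odd m₂) (h3 : 3 ≤ m₂) (hsum : m₁ + m₂ = q)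
    (hdiff : m₁ = m₂ + 1 ∨ m₂ = m₁ + 1) (hcard : Nat.card G * 2 = q * (q ^ 2 - 1))
    (hspec : Set.range (orderOf : G → ℕ) = {m : ℕ | m ∣ p ∨ m ∣ m₁ ∨ m ∣ m₂}) :
    Hyp G p q m₁ m₂ := by
  have hmem : ∀ m : ℕ, (m ∣ p ∨ m ∣ m₁ ∨ m ∣ m₂) → ∃ g : G, orderOf g = m := by
    intro m hm
    have : m ∈ Set.range (orderOf : G → ℕ) := by rw [hspec]; exact hm
    exact this
  refine
    { fin := inferInstance
      pp := hpp
      podd := hp2
      qpow := hq
      m1even := he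
      m2odd := ho
      m2ge := h3
      sum := hsum
      diff := hdiff
      card := ?_
      spec := ?_
      ex1 := hmem m₁ (Or.inr (Or.inl dvd_rfl))
      ex2 := hmem m₂ (Or.inr (Or.inr dvd_rfl)) }
  · have h4 : q ^ 2 - 1 = 4 * m₁ * m₂ := by
      have h5 : q ^ 2 = 4 * m₁ * m₂ + 1 := by
        rcases hdiff with d | d
        · subst d
          rw [← hsum]
          ring
        · subst d
          rw [← hsum]
          ring
      omega
    rw [h4] at hcard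
    have h6 : Nat.card G * 2 = (2 * q * m₁ * m₂) * 2 := by
      rw [hcard]
      ring
    exact Nat.eq_of_mul_eq_mul_right (by norm_num) h6
  · intro g
    have : orderOf g ∈ Set.range (orderOf : G → ℕ) := ⟨g, rfl⟩
    rw [hspec] at this
    exact this

theorem main : Cfsg.Agent.Lib.Helper98.PSpStmt.ToHyp.{u, v} := by
  intro G _ _ F _ _ h3 hchar hspec hcard
  obtain ⟨p, hp⟩ : ∃ p, p = ringChar F := ⟨_, rfl⟩
  have hcp : CharP F p := hp ▸ ringChar.charP F
  obtain ⟨n, hpp, hq⟩ := FiniteField.card F p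
  have hfp : Fact p.Prime := ⟨hpp⟩
  have hp2 : p ≠ 2 := hp ▸ hchar
  have hpodd : p % 2 = 1 := (hpp.eq_two_or_odd).resolve_left hp2
  have hqodd : Fintype.card F % 2 = 1 := by
    rw [hq, Nat.pow_mod, hpodd, one_pow]
    rfl
  have hgcd : Nat.gcd 2 (Fintype.card F - 1) = 2 :=
    Nat.gcd_eq_left (by omega)
  have hS := Cfsg.Agent.S2475.result (F := F) p (by omega)
  rw [hgcd] at hS
  have hc := Cfsg.Agent.Lib.Helper5.SL2Card.card_PSL_two (F := F) (q := Fintype.card F) rfl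
  rw [hgcd, ← hcard] at hc
  rw [hS] at hspec
  rcases (by omega : Fintype.card F % 4 = 1 ∨ Fintype.card F % 4 = 3) with h4 | h4
  · refine ⟨p, (Fintype.card F - 1) / 2, (Fintype.card F + 1) / 2, ?_⟩
    exact mkHyp G p (Fintype.card F) _ _ hpp hp2 ⟨n, hq⟩
      (Nat.even_iff.mpr (by omega)) (Nat.odd_iff.mpr (by omega)) (by omega) (by omega)
      (by omega) hc hspec
  · refine ⟨p, (Fintype.card F + 1) / 2, (Fintype.card F - 1) / 2, ?_⟩
    refine mkHyp G p (Fintype.card F) _ _ hpp hp2 ⟨n, hq⟩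
      (Nat.even_iff.mpr (by omega)) (Nat.odd_iff.mpr (by omega)) (by omega) (by omega)
      (by omega) hc ?_
    rw [hspec]
    ext m
    show (m ∣ p ∨ m ∣ (Fintype.card F - 1) / 2 ∨ m ∣ (Fintype.card F + 1) / 2) ↔
      (m ∣ p ∨ m ∣ (Fintype.card F + 1) / 2 ∨ m ∣ (Fintype.card F - 1) / 2)
    tauto

end Cfsg.Agent.Lib.Helper5.PSpTOHYP
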