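import Mathlib
import Cfsg.Agent.Lib.Helper98.PSpStmt
import Cfsg.Agent.Lib.Helper5.SL2Card
import Cfsg.Agent.S2475

set_option autoImplicit false

/-! S3421 piece [TOHYPE]: a group with the order and the spectrum of `PSL(2, q)`, `q` even,
satisfies `HypE`. -/

namespace Cfsg.Agent.Lib.Helper5.PSpTOHYPE

open Cfsg.Agent.Lib.Helper98.PSpStmt

universe u v

theorem main : Cfsg.Agent.Lib.Helper98.PSpStmt.ToHypE.{u, v} := by
  intro G _ _ F _ _ h3 hchar hspec hcard
  have hcp : CharP F 2 := hchar ▸ ringChar.charP F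
  obtain ⟨n, hpp, hq⟩ := FiniteField.card F 2
  have hfp : Fact (Nat.Prime 2) := ⟨hpp⟩
  have hn : 1 ≤ (n : ℕ) := n.pos
  have hqeven : Fintype.card F % 2 = 0 := by
    rw [hq]
    obtain ⟨k, hk⟩ : ∃ k, (n : ℕ) = k + 1 := ⟨(n : ℕ) - 1, by omega⟩
    rw [hk, pow_succ]
    omega
  have hgcd : Nat.gcd 2 (Fintype.card F - 1) = 1 := by
    have h1 : Nat.gcd 2 (Fintype.card F - 1) ∣ 2 := Nat.gcd_dvd_left _ _
    have h2 : Nat.gcd 2 (Fintype.card F - 1) ∣ Fintype.card F - 1 := Nat.gcd_dvd_right _ _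
    rcases (Nat.dvd_prime Nat.prime_two).mp h1 with h | h
    · exact h
    · rw [h] at h2
      omega
  have hS := Cfsg.Agent.S2475.result (F := F) 2 (by omega)
  rw [hgcd, Nat.div_one, Nat.div_one] at hS
  have hc := Cfsg.Agent.Lib.Helper5.SL2Card.card_PSL_two (F := F) (q := Fintype.card F) rfl
  rw [hgcd, ← hcard, mul_one] at hc
  rw [hS] at hspec
  have hmem : ∀ m : ℕ, (m ∣ 2 ∨ m ∣ Fintype.card F - 1 ∨ m ∣ Fintype.card F + 1) →
      ∃ g : G, orderOf g = m := by
    intro m hm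
    have : m ∈ Set.range (orderOf : G → ℕ) := by rw [hspec]; exact hm
    exact this
  exact
    { fin := inferInstance
      qpow := ⟨n, hq⟩
      qge := by omega
      card := hc
      spec := by
        intro g
        have : orderOf g ∈ Set.range (orderOf : G → ℕ) := ⟨g, rfl⟩
        rw [hspec] at this
        exact this
      ex := hmem _ (Or.inr (Or.inr dvd_rfl)) }

end Cfsg.Agent.Lib.Helper5.PSpTOHYPE
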