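import Mathlib
import Cfsg.Agent.Lib.Helper44.SPStmt

set_option autoImplicit false

/-! S2720 piece [NORM1]: `P(1) * P(-1)` is the norm of `x⁻¹ - x` in `F[X]/(P)`. -/

namespace Cfsg.Agent.Lib.Helper5.SPNORM1

open Polynomial

universe u

/-- `P(c) = N(c - x)` in `F[X]/(P)`, `P` monic. -/
theorem eval_eq_norm {F : Type u} [Field F] (P : F[X]) (hmon : P.Monic) (c : F) :
    P.eval c = Algebra.norm F (algebraMap F (AdjoinRoot P) c - AdjoinRoot.root P) := by
  have hP0 : P ≠ 0 := hmon.ne_zero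
  have hgen : (AdjoinRoot.powerBasis hP0).gen = AdjoinRoot.root P := AdjoinRoot.powerBasis_gen hP0
  rw [Algebra.norm_eq_matrix_det (AdjoinRoot.powerBasis hP0).basis, map_sub, ← hgen]
  have h1 : Algebra.leftMulMatrix (AdjoinRoot.powerBasis hP0).basis
      (algebraMap F (AdjoinRoot P) c) = Matrix.scalar _ c := by
    rw [AlgHom.commutes]
    rfl
  rw [h1, ← Matrix.eval_charpoly, charpoly_leftMulMatrix,
    AdjoinRoot.minpoly_powerBasis_gen_of_monic hmon]

/-- the root is an `r`-th root of unity when `P ∣ X ^ r - 1` -/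
theorem root_pow {F : Type u} [Field F] (P : F[X]) (r : ℕ) (hdvd : P ∣ X ^ r - C (1 : F)) :
    (AdjoinRoot.root P) ^ r = 1 := by
  have h := AdjoinRoot.mk_eq_zero.mpr hdvd
  rw [map_sub, map_pow, AdjoinRoot.mk_X, AdjoinRoot.mk_C, map_one, sub_eq_zero] at h
  exact h

theorem main : Cfsg.Agent.Lib.Helper44.SPStmt.Norm1.{u} := by
  intro F _ _ P hP hmon hev r hr hdvd
  have hirr : Irreducible P := hP.out
  have hP0 : P ≠ 0 := hirr.ne_zero
  have hxr : (AdjoinRoot.root P) ^ r = 1 := root_pow P r hdvd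
  have hx0 : AdjoinRoot.root P ≠ 0 := by
    intro h0
    rw [h0, zero_pow hr.ne_zero] at hxr
    exact zero_ne_one hxr
  have hfin : Module.finrank F (AdjoinRoot P) = P.natDegree := by
    rw [(AdjoinRoot.powerBasis hP0).finrank, AdjoinRoot.powerBasis_dim]
  have hNneg : Algebra.norm F (-1 : AdjoinRoot P) = 1 := by
    have h : (-1 : AdjoinRoot P) = algebraMap F (AdjoinRoot P) (-1) := by
      rw [map_neg, map_one]
    rw [h, Algebra.norm_algebraMap, hfin, hev.neg_one_pow]
  have hNx : Algebra.norm F (AdjoinRoot.root P) = 1 := by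
    by_contra hne
    have hpow : (Algebra.norm F (AdjoinRoot.root P)) ^ r = 1 := by
      rw [← map_pow, hxr, map_one]
    haveI : Fact r.Prime := ⟨hr⟩
    have hord : orderOf (Algebra.norm F (AdjoinRoot.root P)) = r := orderOf_eq_prime hpow hne
    have hprim : IsPrimitiveRoot (Algebra.norm F (AdjoinRoot.root P)) r := by
      rw [← hord]
      exact IsPrimitiveRoot.orderOf _
    have hsplit := X_pow_sub_one_eq_prod hr.pos hprim
    rw [map_one, hsplit] at hdvd
    obtain ⟨ζ, -, hζ⟩ := (hirr.prime).exists_mem_finset_dvd hdvd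
    have hdeg : P.natDegree ≤ 1 := by
      have h := natDegree_le_of_dvd hζ (X_sub_C_ne_zero ζ)
      rwa [natDegree_X_sub_C] at h
    have hpos : 0 < P.natDegree := hirr.natDegree_pos
    have h1 : P.natDegree = 1 := by omega
    rw [h1] at hev
    exact absurd hev (by decide)
  have h1 := eval_eq_norm P hmon 1
  have h2 := eval_eq_norm P hmon (-1)
  rw [h1, h2, ← map_mul]
  have e : (algebraMap F (AdjoinRoot P) 1 - AdjoinRoot.root P) *
      (algebraMap F (AdjoinRoot P) (-1) - AdjoinRoot.root P)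
      = AdjoinRoot.root P * (-1) * ((AdjoinRoot.root P)⁻¹ - AdjoinRoot.root P) := by
    rw [map_neg, map_one]
    have h : AdjoinRoot.root P * (-1) * ((AdjoinRoot.root P)⁻¹ - AdjoinRoot.root P)
        = -(AdjoinRoot.root P * (AdjoinRoot.root P)⁻¹) + AdjoinRoot.root P * AdjoinRoot.root P := by
      ring
    rw [h, mul_inv_cancel₀ hx0]
    ring
  rw [e, map_mul, map_mul, hNx, hNneg, one_mul, one_mul]

end Cfsg.Agent.Lib.Helper5.SPNORM1
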