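import Mathlib
import Cfsg.Agent.Lib.Helper44.SPStmt
import Cfsg.Agent.S2568

set_option autoImplicit false

/-! S2720 piece [NORM2]: for `P` irreducible of degree `2e`, `e` even, dividing `X ^ r - 1`, the
norm of `x⁻¹ - x` in `F[X]/(P)` is a non-square of `F`. -/

namespace Cfsg.Agent.Lib.Helper5.SPNORM2

open Polynomial

universe u

/-- the root is an `r`-th root of unity when `P ∣ X ^ r - 1` -/
theorem root_pow {F : Type u} [Field F] (P : F[X]) (r : ℕ) (hdvd : P ∣ X ^ r - C (1 : F)) :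
    (AdjoinRoot.root P) ^ r = 1 := by
  have h := AdjoinRoot.mk_eq_zero.mpr hdvd
  rw [map_sub, map_pow, AdjoinRoot.mk_X, AdjoinRoot.mk_C, map_one, sub_eq_zero] at h
  exact h

theorem pow_odd' (q n : ℕ) (hq : q % 2 = 1) : q ^ n % 2 = 1 := by
  rw [Nat.pow_mod, hq, one_pow]
  rfl

theorem half_odd (m : ℕ) (hm : m % 2 = 1) : ((m * m + 1) / 2) % 2 = 1 := by
  have h4 : m * m % 4 = 1 := by
    have h : m % 4 = 1 ∨ m % 4 = 3 := by omega
    rcases h with h | h <;> rw [Nat.mul_mod, h]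
  omega

theorem exp_arith (q e : ℕ) (hq : q % 2 = 1) (hq1 : 1 < q) :
    ((q ^ (2 * e) - 1) / (q - 1)) * ((q - 1) / 2) = (q ^ e - 1) * ((q ^ e + 1) / 2) := by
  have hd : (q - 1) ∣ q ^ (2 * e) - 1 := Nat.sub_one_dvd_pow_sub_one q (2 * e)
  obtain ⟨A, hA⟩ := hd
  have hqe : q ^ e % 2 = 1 := pow_odd' q e hq
  have hpos : 0 < q - 1 := by omega
  rw [hA, Nat.mul_div_cancel_left A hpos]
  obtain ⟨c, hc⟩ : ∃ c, q - 1 = 2 * c := ⟨(q - 1) / 2, by omega⟩
  obtain ⟨d, hd⟩ : ∃ d, q ^ e + 1 = 2 * d := ⟨(q ^ e + 1) / 2, by omega⟩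
  have hc' : (q - 1) / 2 = c := by omega
  have hd' : (q ^ e + 1) / 2 = d := by omega
  rw [hc', hd']
  have hsq : q ^ (2 * e) - 1 = (q ^ e - 1) * (q ^ e + 1) := by
    have h1 : 1 ≤ q ^ e := Nat.one_le_pow _ _ (by omega)
    have h2 : q ^ (2 * e) = q ^ e * q ^ e := by rw [two_mul, pow_add]
    rw [h2]
    zify [h1, Nat.one_le_iff_ne_zero.mpr (Nat.mul_ne_zero (by omega : q ^ e ≠ 0) (by omega : q ^ e ≠ 0))]
    ring
  have h3 : (A * c) * 2 = ((q ^ e - 1) * d) * 2 := by
    calc (A * c) * 2 = (2 * c) * A := by ring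
      _ = q ^ (2 * e) - 1 := by rw [← hc, hA]
      _ = (q ^ e - 1) * (q ^ e + 1) := hsq
      _ = ((q ^ e - 1) * d) * 2 := by rw [hd]; ring
  exact Nat.eq_of_mul_eq_mul_right (by norm_num) h3

theorem main : Cfsg.Agent.Lib.Helper44.SPStmt.Norm2.{u} := by
  classical
  intro F _ _ p _ _ h2 r hr hr2 hrp P hP hmon hdvd hne e hdeg hev
  have hirr : Irreducible P := hP.out
  have hP0 : P ≠ 0 := hirr.ne_zero
  haveI : Fact r.Prime := ⟨hr⟩
  have hp : p.Prime := Fact.out
  -- the cardinality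
  obtain ⟨f, -, hf⟩ := FiniteField.card F p
  have hq1 : 1 < Fintype.card F := Fintype.one_lt_card
  have hp2 : p ≠ 2 := by
    rintro rfl
    apply h2
    have h3 := CharP.cast_eq_zero F 2
    exact_mod_cast h3
  have hpodd : p % 2 = 1 := by
    rcases hp.eq_two_or_odd with h | h
    · exact absurd h hp2
    · exact h
  have hodd : Fintype.card F % 2 = 1 := by
    rw [hf]
    exact pow_odd' p _ hpodd
  -- order of q mod r
  have hq0 : ((Fintype.card F : ℕ) : ZMod r) ≠ 0 := by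
    rw [Ne, ZMod.natCast_eq_zero_iff, hf]
    intro h
    exact hrp ((Nat.prime_dvd_prime_iff_eq hr hp).mp (hr.dvd_of_dvd_pow h))
  have hidvd : orderOf ((Fintype.card F : ℕ) : ZMod r) ∣ r - 1 :=
    orderOf_dvd_of_pow_eq_one (ZMod.pow_card_sub_one_eq_one hq0)
  obtain ⟨t, ht⟩ := hidvd
  obtain ⟨S, -, -, hS, hall⟩ := Cfsg.Agent.S2568.cyclo_facts (F := F) (p := p) r
    (orderOf ((Fintype.card F : ℕ) : ZMod r)) t hr hrp rfl
    (by rw [ht, mul_comm])
  have hord : orderOf ((Fintype.card F : ℕ) : ZMod r) = 2 * e := by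
    rcases (hall P hirr hmon).mp hdvd with h | h
    · exact absurd h hne
    · rw [← hdeg]
      exact ((hS P h).2.2).symm
  have he1 : 1 ≤ e := by
    have := hirr.natDegree_pos
    omega
  -- q ^ e = -1 mod r
  have hqe : ((Fintype.card F : ℕ) : ZMod r) ^ e = -1 := by
    have h1 : (((Fintype.card F : ℕ) : ZMod r) ^ e) ^ 2 = 1 := by
      rw [← pow_mul, mul_comm, ← hord]
      exact pow_orderOf_eq_one _
    have h3 : ((Fintype.card F : ℕ) : ZMod r) ^ e ≠ 1 := by
      intro h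
      have := orderOf_dvd_of_pow_eq_one h
      rw [hord] at this
      have := Nat.le_of_dvd (by omega) this
      omega
    have h4 : (((Fintype.card F : ℕ) : ZMod r) ^ e - 1) * (((Fintype.card F : ℕ) : ZMod r) ^ e + 1) = 0 := by
      ring_nf
      ring_nf at h1
      rw [h1]
      ring
    rcases mul_eq_zero.mp h4 with h | h
    · exact absurd (sub_eq_zero.mp h) h3
    · exact eq_neg_of_add_eq_zero_left h
  have hrdvd : r ∣ Fintype.card F ^ e + 1 := by
    rw [← ZMod.natCast_eq_zero_iff]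
    push_cast
    rw [hqe]
    ring
  -- the field L
  have hxr : (AdjoinRoot.root P) ^ r = 1 := root_pow P r hdvd
  have hx0 : AdjoinRoot.root P ≠ 0 := by
    intro h0
    rw [h0, zero_pow hr.ne_zero] at hxr
    exact zero_ne_one hxr
  have hfin : Module.finrank F (AdjoinRoot P) = P.natDegree := by
    rw [(AdjoinRoot.powerBasis hP0).finrank, AdjoinRoot.powerBasis_dim]
  haveI : Module.Finite F (AdjoinRoot P) := (AdjoinRoot.powerBasis hP0).finite
  haveI : Finite (AdjoinRoot P) := Module.finite_of_finite F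
  have hcardL : Nat.card (AdjoinRoot P) = Fintype.card F ^ (2 * e) := by
    rw [Module.natCard_eq_pow_finrank (K := F), hfin, hdeg, Nat.card_eq_fintype_card]
  haveI : CharP (AdjoinRoot P) p := charP_of_injective_algebraMap (algebraMap F (AdjoinRoot P)).injective p
  -- x ^ (q ^ e) = x⁻¹
  have hxq : (AdjoinRoot.root P) ^ (Fintype.card F ^ e) = (AdjoinRoot.root P)⁻¹ := by
    obtain ⟨c, hc⟩ := hrdvd
    have h1 : (AdjoinRoot.root P) ^ (Fintype.card F ^ e + 1) = 1 := by
      rw [hc, pow_mul, hxr, one_pow]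
    rw [pow_succ] at h1
    exact eq_inv_of_mul_eq_one_left h1
  -- ε
  have hε0 : (AdjoinRoot.root P)⁻¹ - AdjoinRoot.root P ≠ 0 := by
    intro h
    have h1 : (AdjoinRoot.root P) ^ 2 = 1 := by
      have h' := sub_eq_zero.mp h
      rw [pow_two]
      nth_rewrite 1 [← h']
      exact inv_mul_cancel₀ hx0
    have hx1 : AdjoinRoot.root P ≠ 1 := by
      intro h1'
      have h'' : AdjoinRoot.mk P (X - C 1) = 0 := by
        rw [map_sub, AdjoinRoot.mk_X, AdjoinRoot.mk_C, map_one, h1', sub_self]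
      have hd := AdjoinRoot.mk_eq_zero.mp h''
      have := natDegree_le_of_dvd hd (X_sub_C_ne_zero 1)
      rw [natDegree_X_sub_C] at this
      omega
    have ho : orderOf (AdjoinRoot.root P) = r := orderOf_eq_prime hxr hx1
    have := orderOf_dvd_of_pow_eq_one h1
    rw [ho] at this
    exact hr2 ((Nat.prime_dvd_prime_iff_eq hr Nat.prime_two).mp this)
  have hεq : ((AdjoinRoot.root P)⁻¹ - AdjoinRoot.root P) ^ (Fintype.card F ^ e)
      = -((AdjoinRoot.root P)⁻¹ - AdjoinRoot.root P) := by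
    rw [hf, ← pow_mul, sub_pow_char_pow, pow_mul, ← hf, inv_pow, hxq, inv_inv]
    ring
  have hεq1 : ((AdjoinRoot.root P)⁻¹ - AdjoinRoot.root P) ^ (Fintype.card F ^ e - 1) = -1 := by
    have h1 : 1 ≤ Fintype.card F ^ e := Nat.one_le_pow _ _ (by omega)
    have h3 : ((AdjoinRoot.root P)⁻¹ - AdjoinRoot.root P) ^ (Fintype.card F ^ e - 1) *
        ((AdjoinRoot.root P)⁻¹ - AdjoinRoot.root P) = (-1) * ((AdjoinRoot.root P)⁻¹ - AdjoinRoot.root P) := by
      rw [← pow_succ, Nat.sub_add_cancel h1, hεq]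
      ring
    exact mul_right_cancel₀ hε0 h3
  -- the norm
  have hnorm := FiniteField.algebraMap_norm_eq_pow (K := F) (K' := AdjoinRoot P)
    (x := (AdjoinRoot.root P)⁻¹ - AdjoinRoot.root P)
  rw [hcardL, Nat.card_eq_fintype_card] at hnorm
  rintro ⟨b, hb⟩
  have hb0 : b ≠ 0 := by
    rintro rfl
    rw [mul_zero] at hb
    exact hε0 (Algebra.norm_eq_zero_iff.mp hb)
  have hbq : b ^ (Fintype.card F - 1) = 1 := FiniteField.pow_card_sub_one_eq_one b hb0
  have hN : (Algebra.norm F ((AdjoinRoot.root P)⁻¹ - AdjoinRoot.root P)) ^ ((Fintype.card F - 1) / 2) = 1 := by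
    rw [hb, ← pow_two, ← pow_mul]
    have : 2 * ((Fintype.card F - 1) / 2) = Fintype.card F - 1 := by omega
    rw [this, hbq]
  have hL := congrArg (algebraMap F (AdjoinRoot P)) hN
  rw [map_pow, hnorm, ← pow_mul, exp_arith _ e hodd hq1, pow_mul, hεq1, map_one] at hL
  obtain ⟨j, hj⟩ := hev
  have hoddd : ((Fintype.card F ^ e + 1) / 2) % 2 = 1 := by
    have h1 : Fintype.card F ^ e = Fintype.card F ^ j * Fintype.card F ^ j := by rw [hj, pow_add]
    rw [h1]
    exact half_odd _ (pow_odd' _ j hodd)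
  rw [Odd.neg_one_pow (Nat.odd_iff.mpr hoddd)] at hL
  -- -1 = 1 in L
  have h2L : (2 : AdjoinRoot P) = 0 := by
    have : (2 : AdjoinRoot P) = 1 - (-1) := by ring
    rw [this, hL, sub_self]
  apply h2
  have h3 : algebraMap F (AdjoinRoot P) 2 = 0 := by rw [map_ofNat]; exact h2L
  exact (map_eq_zero_iff _ (algebraMap F (AdjoinRoot P)).injective).mp h3

end Cfsg.Agent.Lib.Helper5.SPNORM2
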