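import Mathlib
import Cfsg.Agent.Lib.Helper44.SPStmt
import Cfsg.Agent.Lib.Helper44.ReflProd
import Cfsg.Agent.Lib.Helper44.Gram

set_option autoImplicit false

/-! S2720 piece [ORTH]: an orthogonal basis as a list of reflection vectors. -/

namespace Cfsg.Agent.Lib.Helper5.SPORTH

open Matrix Module QuadraticMap
open Cfsg.Agent.Lib.Helper44.QSpace Cfsg.Agent.Lib.Helper44.OGroup Cfsg.Agent.Lib.Helper44.OMat
open Cfsg.Agent.Lib.Helper44.OExt Cfsg.Agent.Lib.Helper44.ReflProd Cfsg.Agent.Lib.Helper44.Gram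

universe u

theorem main : Cfsg.Agent.Lib.Helper44.SPStmt.OrthList.{u} := by
  intro F _ ι _ _ N h2 hdet hev
  have : Invertible (2 : F) := invertibleOfNonzero h2
  obtain ⟨Q, hQ⟩ : ∃ Q, Q = qN N := ⟨_, rfl⟩
  rw [← hQ]
  have hsymm : LinearMap.IsSymm (polarBilin Q : LinearMap.BilinForm F (ι → F)) := by
    refine ⟨fun x y => ?_⟩
    show polar Q x y = polar Q y x
    exact polar_comm Q x y
  obtain ⟨v, hv⟩ := LinearMap.BilinForm.exists_orthogonal_basis hsymm
  have ho : ∀ i j, i ≠ j → polar Q (v i) (v j) = 0 := fun i j hij => hv hij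
  have hM : LinearMap.BilinForm.toMatrix v (polarBilin Q)
      = Matrix.diagonal (fun i => 2 * Q (v i)) := by
    ext i j
    rw [LinearMap.BilinForm.toMatrix_apply, Matrix.diagonal_apply]
    by_cases hij : i = j
    · subst hij
      rw [if_pos rfl]
      exact polar_self' Q (v i)
    · rw [if_neg hij]
      exact ho i j hij
  have hstd : LinearMap.BilinForm.toMatrix (Pi.basisFun F ι) (polarBilin Q) = N + Nᵀ := by
    ext i j
    rw [LinearMap.BilinForm.toMatrix_apply, Pi.basisFun_apply, Pi.basisFun_apply]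
    show polar Q (Pi.single i 1) (Pi.single j 1) = _
    rw [hQ, polar_qN]
    simp
  obtain ⟨d, hd, hdd⟩ := gram_det_change v (Pi.basisFun F ι) (polarBilin Q)
  rw [hM, hstd, Matrix.det_diagonal, Finset.prod_mul_distrib, Finset.prod_const, Finset.card_univ,
    Fintype.card_fin] at hdd
  obtain ⟨j, hj⟩ := hev
  have h2j : (2 : F) ^ finrank F (ι → F) = (2 ^ j) ^ 2 := by
    rw [Module.finrank_fintype_fun_eq_card, hj]; ring
  have h2j0 : (2 : F) ^ j ≠ 0 := pow_ne_zero _ h2
  have hprod : ∏ i, Q (v i) = (d / 2 ^ j) ^ 2 * (N + Nᵀ).det := by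
    rw [h2j] at hdd
    field_simp
    rw [← hdd]
    ring
  have hc : d / 2 ^ j ≠ 0 := div_ne_zero hd h2j0
  have hne : ∀ i, Q (v i) ≠ 0 := by
    intro i h0
    have : ∏ i, Q (v i) = 0 := Finset.prod_eq_zero (Finset.mem_univ i) h0
    rw [hprod] at this
    rcases mul_eq_zero.mp this with h | h
    · exact hc (pow_eq_zero_iff (two_ne_zero) |>.mp h)
    · exact hdet h
  refine ⟨List.ofFn v, ?_, ?_, ?_, d / 2 ^ j, hc, ?_⟩
  · intro w hw
    rw [List.mem_ofFn] at hw
    obtain ⟨i, rfl⟩ := hw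
    exact hne i
  · rw [List.length_ofFn, Module.finrank_fintype_fun_eq_card]
  · intro x
    exact prod_reflE_basis Q v hne ho x
  · rw [List.map_ofFn, List.prod_ofFn, ← hprod]
    rfl

end Cfsg.Agent.Lib.Helper5.SPORTH
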