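import Mathlib

set_option autoImplicit false

/-! Finite groups of symplectic isometries all of whose squares are `±1` are small:
order at most `2^(2m-1)` in dimension `2m ≥ 6`.  (Hence the `2`-rank of `PSp_{2m}` is at most
`2m-2` for `m ≥ 3`.) -/

namespace Cfsg.Agent.Lib.Helper5.TwoRankSp

open Module

universe u v

variable {F : Type*} [Field F]

/-- a nondegenerate alternating bilinear form, as a plain function -/
structure AltForm {V : Type*} [AddCommGroup V] [Module F V] (ω : V → V → F) : Prop where
  add_left : ∀ u v w, ω (u + v) w = ω u w + ω v w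
  smul_left : ∀ (c : F) u v, ω (c • u) v = c * ω u v
  add_right : ∀ u v w, ω u (v + w) = ω u v + ω u w
  smul_right : ∀ (c : F) u v, ω u (c • v) = c * ω u v
  self : ∀ v, ω v v = 0
  nondeg : ∀ v, (∀ w, ω v w = 0) → v = 0

/-- a group acting by isometries whose squares are `±1` -/
structure PreRep {G : Type*} [Group G] {V : Type*} [AddCommGroup V] [Module F V]
    (ω : V → V → F) (ρ : G →* Module.End F V) : Prop where
  iso : ∀ g v w, ω (ρ g v) (ρ g w) = ω v w
  sq : ∀ g, ρ (g * g) = 1 ∨ ρ (g * g) = -1

/-- a counting lemma: a finite cover by injective partial maps into a set -/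
theorem card_le_cover {X Y ι : Type*} [Fintype ι] [Finite Y] (S : Set Y) (P : ι → X → Prop)
    (f : ι → X → Y) (hmem : ∀ i x, P i x → f i x ∈ S)
    (hinj : ∀ i x x', P i x → P i x' → f i x = f i x' → x = x') (hcov : ∀ x, ∃ i, P i x) :
    Nat.card X ≤ Fintype.card ι * Nat.card S := by
  classical
  choose i hi using hcov
  have hinj' : Function.Injective (fun x : X => ((i x, ⟨f (i x) x, hmem _ _ (hi x)⟩) : ι × S)) := by
    intro x x' h
    have h1 : i x = i x' := congrArg Prod.fst h
    have h2 : f (i x) x = f (i x') x' := congrArg (fun p : ι × S => (p.2 : Y)) h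
    have hx' := hi x'
    rw [← h1] at hx' h2
    exact hinj (i x) x x' (hi x) hx' h2
  have := Nat.card_le_card_of_injective _ hinj'
  rw [Nat.card_prod] at this
  rw [← Nat.card_eq_fintype_card]
  exact this

section basic

variable {V : Type*} [AddCommGroup V] [Module F V] {ω : V → V → F}

theorem AltForm.neg_left (hω : AltForm ω) (u v : V) : ω (-u) v = - ω u v := by
  have := hω.smul_left (-1) u v
  rwa [neg_one_smul, neg_one_mul] at this

theorem AltForm.neg_right (hω : AltForm ω) (u v : V) : ω u (-v) = - ω u v := by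
  have := hω.smul_right (-1) u v
  rwa [neg_one_smul, neg_one_mul] at this

theorem AltForm.finrank_ne_one (hω : AltForm ω) : finrank F V ≠ 1 := by
  intro h
  obtain ⟨v, hv, hw⟩ := finrank_eq_one_iff'.mp h
  apply hv
  apply hω.nondeg
  intro w
  obtain ⟨c, rfl⟩ := hw w
  rw [hω.smul_right, hω.self, mul_zero]

/-- the `+1`-eigenspace -/
def Vp (A : Module.End F V) : Submodule F V := LinearMap.ker (A - 1)

/-- the `-1`-eigenspace -/
def Vm (A : Module.End F V) : Submodule F V := LinearMap.ker (A + 1)

theorem mem_Vp {A : Module.End F V} {v : V} : v ∈ Vp A ↔ A v = v := by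
  rw [Vp, LinearMap.mem_ker, LinearMap.sub_apply, Module.End.one_apply, sub_eq_zero]

theorem mem_Vm {A : Module.End F V} {v : V} : v ∈ Vm A ↔ A v = -v := by
  rw [Vm, LinearMap.mem_ker, LinearMap.add_apply, Module.End.one_apply, add_eq_zero_iff_eq_neg]

theorem sq_apply {A : Module.End F V} (hA : A * A = 1) (v : V) : A (A v) = v := by
  have := congrArg (fun f : Module.End F V => f v) hA
  simpa using this

theorem decomp (h2 : (2 : F) ≠ 0) {A : Module.End F V} (hA : A * A = 1) (u : V) :
    ∃ a ∈ Vp A, ∃ b ∈ Vm A, u = a + b := by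
  refine ⟨(2⁻¹ : F) • (u + A u), ?_, (2⁻¹ : F) • (u - A u), ?_, ?_⟩
  · rw [mem_Vp, map_smul, map_add, sq_apply hA, add_comm]
  · rw [mem_Vm, map_smul, map_sub, sq_apply hA, ← smul_neg, neg_sub]
  · rw [← smul_add]
    have : u + A u + (u - A u) = (2 : F) • u := by rw [two_smul]; abel
    rw [this, smul_smul, inv_mul_cancel₀ h2, one_smul]

theorem Vp_inf_Vm (h2 : (2 : F) ≠ 0) (A : Module.End F V) : Vp A ⊓ Vm A = ⊥ := by
  rw [eq_bot_iff]
  rintro v ⟨h1, h2'⟩
  rw [SetLike.mem_coe, mem_Vp] at h1
  rw [SetLike.mem_coe, mem_Vm] at h2'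
  rw [Submodule.mem_bot]
  have h3 : (2 : F) • v = 0 := by
    rw [two_smul]
    nth_rewrite 1 [← h1]
    rw [h2', neg_add_cancel]
  exact (smul_eq_zero.mp h3).resolve_left h2

theorem Vp_sup_Vm (h2 : (2 : F) ≠ 0) {A : Module.End F V} (hA : A * A = 1) :
    Vp A ⊔ Vm A = ⊤ := by
  rw [eq_top_iff]
  intro u _
  obtain ⟨a, ha, b, hb, rfl⟩ := decomp h2 hA u
  exact Submodule.add_mem_sup ha hb

theorem finrank_add [FiniteDimensional F V] (h2 : (2 : F) ≠ 0) {A : Module.End F V}
    (hA : A * A = 1) : finrank F (Vp A) + finrank F (Vm A) = finrank F V := by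
  have h := Submodule.finrank_sup_add_finrank_inf_eq (Vp A) (Vm A)
  rw [Vp_sup_Vm h2 hA, Vp_inf_Vm h2, finrank_top, finrank_bot, add_zero] at h
  exact h.symm

theorem orth (h2 : (2 : F) ≠ 0) (hω : AltForm ω) {A : Module.End F V}
    (hiso : ∀ v w, ω (A v) (A w) = ω v w) {a b : V} (ha : a ∈ Vp A) (hb : b ∈ Vm A) :
    ω a b = 0 ∧ ω b a = 0 := by
  rw [mem_Vp] at ha
  rw [mem_Vm] at hb
  constructor
  · have h := hiso a b
    rw [ha, hb, hω.neg_right] at h
    have h3 : (2 : F) * ω a b = 0 := by
      rw [two_mul]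
      nth_rewrite 1 [← h]
      exact neg_add_cancel _
    exact (mul_eq_zero.mp h3).resolve_left h2
  · have h := hiso b a
    rw [ha, hb, hω.neg_left] at h
    have h3 : (2 : F) * ω b a = 0 := by
      rw [two_mul]
      nth_rewrite 1 [← h]
      exact neg_add_cancel _
    exact (mul_eq_zero.mp h3).resolve_left h2

/-- restriction of the form to a subspace -/
def restr (ω : V → V → F) (W : Submodule F V) : W → W → F := fun v w => ω v w

theorem altForm_restr (hω : AltForm ω) (W W' : Submodule F V)
    (hsum : ∀ u, ∃ a ∈ W, ∃ b ∈ W', u = a + b) (horth : ∀ a ∈ W, ∀ b ∈ W', ω a b = 0) :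
    AltForm (restr ω W) where
  add_left u v w := hω.add_left u v w
  smul_left c u v := hω.smul_left c u v
  add_right u v w := hω.add_right u v w
  smul_right c u v := hω.smul_right c u v
  self v := hω.self v
  nondeg v hv := by
    apply Subtype.ext
    apply hω.nondeg
    intro u
    obtain ⟨a, ha, b, hb, rfl⟩ := hsum u
    rw [hω.add_right, horth v v.2 b hb, add_zero]
    exact hv ⟨a, ha⟩

/-- restriction of a representation to an invariant subspace -/
def resHom {K : Type*} [Group K] (φ : K →* Module.End F V) (W : Submodule F V)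
    (hW : ∀ k, ∀ v ∈ W, φ k v ∈ W) : K →* Module.End F W where
  toFun k := (φ k).restrict (hW k)
  map_one' := by
    ext v
    simp [LinearMap.restrict_apply]
  map_mul' k l := by
    ext v
    simp [LinearMap.restrict_apply]

theorem resHom_apply {K : Type*} [Group K] (φ : K →* Module.End F V) (W : Submodule F V)
    (hW : ∀ k, ∀ v ∈ W, φ k v ∈ W) (k : K) (v : W) : ((resHom φ W hW k v : W) : V) = φ k v := rfl

theorem resHom_eq_one_iff {K : Type*} [Group K] (φ : K →* Module.End F V) (W : Submodule F V)
    (hW : ∀ k, ∀ v ∈ W, φ k v ∈ W) (k : K) : resHom φ W hW k = 1 ↔ ∀ v ∈ W, φ k v = v := by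
  constructor
  · intro h v hv
    have := congrArg (fun f : Module.End F W => ((f ⟨v, hv⟩ : W) : V)) h
    exact this
  · intro h
    ext v
    exact h v v.2

theorem preRep_resHom {K : Type*} [Group K] {φ : K →* Module.End F V} (hφ : PreRep ω φ)
    (W : Submodule F V) (hW : ∀ k, ∀ v ∈ W, φ k v ∈ W) :
    PreRep (restr ω W) (resHom φ W hW) where
  iso k v w := hφ.iso k v w
  sq k := by
    rcases hφ.sq k with h | h
    · left
      rw [resHom_eq_one_iff]
      intro v _
      rw [h, Module.End.one_apply]
    · right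
      ext v
      rw [resHom_apply, h]
      simp

theorem preRep_comp {G K : Type*} [Group G] [Group K] {ρ : G →* Module.End F V}
    (hρ : PreRep ω ρ) (f : K →* G) : PreRep ω (ρ.comp f) where
  iso k v w := hρ.iso (f k) v w
  sq k := by
    have := hρ.sq (f k)
    rwa [← map_mul] at this

theorem neg_one_ne_one (h2 : (2 : F) ≠ 0) [Nontrivial V] : (-1 : Module.End F V) ≠ 1 := by
  intro h
  obtain ⟨v, hv⟩ := exists_ne (0 : V)
  have h1 := congrArg (fun f : Module.End F V => f v) h
  simp only [LinearMap.neg_apply, Module.End.one_apply] at h1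
  have h3 : (2 : F) • v = 0 := by
    rw [two_smul]
    nth_rewrite 1 [← h1]
    exact neg_add_cancel v
  exact hv ((smul_eq_zero.mp h3).resolve_left h2)

variable {G : Type*} [Group G] {ρ : G →* Module.End F V}

theorem key_eq (ρ : G →* Module.End F V) (g h : G) :
    ρ g * ρ (g * h * (g * h)) * ρ h = ρ (g * g) * (ρ h * ρ g) * ρ (h * h) := by
  simp only [map_mul, mul_assoc]

theorem comm_or_anti (hρ : PreRep ω ρ) (g h : G) :
    ρ g * ρ h = ρ h * ρ g ∨ ρ g * ρ h = -(ρ h * ρ g) := by
  have key := key_eq ρ g h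
  rcases hρ.sq g with h1 | h1 <;> rcases hρ.sq h with h2 | h2 <;>
    rcases hρ.sq (g * h) with h3 | h3 <;> rw [h1, h2, h3] at key <;>
    simp only [mul_one, one_mul, mul_neg, neg_mul, neg_neg, neg_inj] at key
  · exact Or.inl key
  · right
    rw [← key, neg_neg]
  · right
    rw [key]
  · exact Or.inl key
  · right
    rw [key]
  · exact Or.inl key
  · exact Or.inl key
  · right
    rw [← key, neg_neg]

theorem comm_of_sq_one (h1 : ∀ g, ρ (g * g) = 1) (g h : G) : ρ g * ρ h = ρ h * ρ g := by
  have key := key_eq ρ g h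
  rw [h1, h1, h1] at key
  simpa using key

end basic

section main

/-- groups of isometries all of whose squares are `1` -/
theorem card_le_of_sq_one (h2 : (2 : F) ≠ 0) : ∀ (n : ℕ) (G : Type u) [Group G] [Finite G]
    (V : Type v) [AddCommGroup V] [Module F V] [FiniteDimensional F V] (ω : V → V → F)
    (_ : AltForm ω) (ρ : G →* Module.End F V) (_ : PreRep ω ρ) (_ : ∀ g, ρ (g * g) = 1),
    finrank F V = n → Nat.card G ≤ Nat.card ρ.ker * 2 ^ (n / 2) := by
  intro n
  induction n using Nat.strong_induction_on with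
  | _ n ih =>
  intro G _ _ V _ _ _ ω hω ρ hρ h1 hn
  by_cases hall : ∀ g, ρ g = 1 ∨ ρ g = -1
  · -- scalar case
    rcases Nat.lt_or_ge n 2 with hlt | hge
    · have hn0 : n = 0 := by
        have := hω.finrank_ne_one
        omega
      have hsub : Subsingleton V := by
        rw [← finrank_zero_iff (R := F)]
        omega
      have hker : ∀ g, ρ g = 1 := fun g => by
        ext v
        exact Subsingleton.elim _ _
      have := card_le_cover (X := G) (Y := G) (ι := Unit) (ρ.ker : Set G) (fun _ _ => True)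
        (fun _ g => g) (fun _ g _ => MonoidHom.mem_ker.mpr (hker g)) (fun _ x x' _ _ h => h)
        (fun _ => ⟨(), trivial⟩)
      rw [Fintype.card_unit, one_mul] at this
      rw [hn0]
      simpa using this
    · obtain ⟨g₀, hg₀⟩ : ∃ g₀, ∀ g, ρ g = 1 ∨ ρ (g * g₀) = 1 := by
        by_cases hex : ∃ g₀, ρ g₀ = -1
        · obtain ⟨g₀, hg₀⟩ := hex
          refine ⟨g₀, fun g => ?_⟩
          rcases hall g with h | h
          · exact Or.inl h
          · right
            rw [map_mul, h, hg₀]
            simp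
        · refine ⟨1, fun g => ?_⟩
          rcases hall g with h | h
          · exact Or.inl h
          · exact absurd ⟨g, h⟩ hex
      have := card_le_cover (X := G) (Y := G) (ι := Bool) (ρ.ker : Set G)
        (fun b g => if b then ρ g = 1 else ρ (g * g₀) = 1) (fun b g => if b then g else g * g₀)
        (by
          intro b g hb
          cases b
          · exact MonoidHom.mem_ker.mpr (by simpa using hb)
          · exact MonoidHom.mem_ker.mpr (by simpa using hb))
        (by
          intro b x x' _ _ h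
          cases b
          · simpa using h
          · simpa using h)
        (by
          intro g
          rcases hg₀ g with h | h
          · exact ⟨true, by simpa using h⟩
          · exact ⟨false, by simpa using h⟩)
      rw [Fintype.card_bool] at this
      have hpow : 2 ≤ 2 ^ (n / 2) := by
        calc 2 = 2 ^ 1 := by norm_num
          _ ≤ 2 ^ (n / 2) := Nat.pow_le_pow_right (by norm_num) (by omega)
      calc Nat.card G ≤ 2 * Nat.card ρ.ker := this
        _ = Nat.card ρ.ker * 2 := by ring
        _ ≤ Nat.card ρ.ker * 2 ^ (n / 2) := Nat.mul_le_mul_left _ hpow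
  · obtain ⟨a, ha⟩ := not_forall.mp hall
    rw [not_or] at ha
    obtain ⟨ha1, ha2⟩ := ha
    have hAA : ρ a * ρ a = 1 := by rw [← map_mul]; exact h1 a
    have hcomm := comm_of_sq_one h1
    have hWp : ∀ g, ∀ v ∈ Vp (ρ a), ρ g v ∈ Vp (ρ a) := by
      intro g v hv
      rw [mem_Vp] at hv ⊢
      have := congrArg (fun f : Module.End F V => f v) (hcomm a g)
      simp only [Module.End.mul_apply] at this
      rw [this, hv]
    have hWm : ∀ g, ∀ v ∈ Vm (ρ a), ρ g v ∈ Vm (ρ a) := by
      intro g v hv
      rw [mem_Vm] at hv ⊢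
      have := congrArg (fun f : Module.End F V => f v) (hcomm a g)
      simp only [Module.End.mul_apply] at this
      rw [this, hv, map_neg]
    have hsum := finrank_add (V := V) h2 hAA
    have hVm : Vm (ρ a) ≠ ⊥ := by
      intro hbot
      apply ha1
      ext u
      obtain ⟨p, hp, m, hm, rfl⟩ := decomp h2 hAA u
      rw [hbot, Submodule.mem_bot] at hm
      subst hm
      rw [add_zero, Module.End.one_apply]
      exact mem_Vp.mp hp
    have hVp : Vp (ρ a) ≠ ⊥ := by
      intro hbot
      apply ha2
      ext u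
      obtain ⟨p, hp, m, hm, rfl⟩ := decomp h2 hAA u
      rw [hbot, Submodule.mem_bot] at hp
      subst hp
      rw [zero_add, LinearMap.neg_apply, Module.End.one_apply]
      exact mem_Vm.mp hm
    have hp1 : 1 ≤ finrank F (Vp (ρ a)) := Submodule.one_le_finrank_iff.mpr hVp
    have hm1 : 1 ≤ finrank F (Vm (ρ a)) := Submodule.one_le_finrank_iff.mpr hVm
    have hωp : AltForm (restr ω (Vp (ρ a))) := altForm_restr hω (Vp (ρ a)) (Vm (ρ a))
      (decomp h2 hAA) (fun p hp m hm => (orth h2 hω (hρ.iso a) hp hm).1)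
    have hωm : AltForm (restr ω (Vm (ρ a))) := altForm_restr hω (Vm (ρ a)) (Vp (ρ a))
      (fun u => by
        obtain ⟨p, hp, m, hm, rfl⟩ := decomp h2 hAA u
        exact ⟨m, hm, p, hp, add_comm p m⟩)
      (fun m hm p hp => (orth h2 hω (hρ.iso a) hp hm).2)
    have ih1 := ih (finrank F (Vp (ρ a))) (by omega) G (Vp (ρ a)) (restr ω (Vp (ρ a))) hωp
      (resHom ρ (Vp (ρ a)) hWp) (preRep_resHom hρ _ _) (fun g => by
        rw [resHom_eq_one_iff]
        intro v _
        rw [h1, Module.End.one_apply]) rfl
    have hWmK : ∀ k : (resHom ρ (Vp (ρ a)) hWp).ker, ∀ v ∈ Vm (ρ a),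
        (ρ.comp (resHom ρ (Vp (ρ a)) hWp).ker.subtype) k v ∈ Vm (ρ a) := fun k v hv => hWm k v hv
    have ih2 := ih (finrank F (Vm (ρ a))) (by omega) (resHom ρ (Vp (ρ a)) hWp).ker (Vm (ρ a))
      (restr ω (Vm (ρ a))) hωm
      (resHom (ρ.comp (resHom ρ (Vp (ρ a)) hWp).ker.subtype) (Vm (ρ a)) hWmK)
      (preRep_resHom (preRep_comp hρ _) _ _) (fun k => by
        rw [resHom_eq_one_iff]
        intro v _
        show ρ ((k * k : (resHom ρ (Vp (ρ a)) hWp).ker) : G) v = v
        rw [Subgroup.coe_mul, h1, Module.End.one_apply]) rfl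
    have h5 := card_le_cover
      (X := (resHom (ρ.comp (resHom ρ (Vp (ρ a)) hWp).ker.subtype) (Vm (ρ a)) hWmK).ker)
      (Y := G) (ι := Unit) (ρ.ker : Set G) (fun _ _ => True)
      (fun _ k => ((k : (resHom ρ (Vp (ρ a)) hWp).ker) : G))
      (by
        intro _ k _
        rw [SetLike.mem_coe, MonoidHom.mem_ker]
        have hk1 : ∀ v ∈ Vp (ρ a), ρ ((k : (resHom ρ (Vp (ρ a)) hWp).ker) : G) v = v :=
          (resHom_eq_one_iff ρ (Vp (ρ a)) hWp _).mp
            (MonoidHom.mem_ker.mp (k : (resHom ρ (Vp (ρ a)) hWp).ker).2)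
        have hk2 : ∀ v ∈ Vm (ρ a), ρ ((k : (resHom ρ (Vp (ρ a)) hWp).ker) : G) v = v :=
          (resHom_eq_one_iff (ρ.comp (resHom ρ (Vp (ρ a)) hWp).ker.subtype) (Vm (ρ a)) hWmK _).mp
            (MonoidHom.mem_ker.mp k.2)
        ext u
        obtain ⟨p, hp, m, hm, rfl⟩ := decomp h2 hAA u
        rw [map_add, hk1 p hp, hk2 m hm, Module.End.one_apply])
      (fun _ x x' _ _ h => Subtype.ext (Subtype.ext h)) (fun _ => ⟨(), trivial⟩)
    rw [Fintype.card_unit, one_mul] at h5
    have h5' : Nat.card (resHom (ρ.comp (resHom ρ (Vp (ρ a)) hWp).ker.subtype) (Vm (ρ a)) hWmK).ker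
        ≤ Nat.card ρ.ker := h5
    calc Nat.card G ≤ Nat.card (resHom ρ (Vp (ρ a)) hWp).ker * 2 ^ (finrank F (Vp (ρ a)) / 2) := ih1
      _ ≤ (Nat.card (resHom (ρ.comp (resHom ρ (Vp (ρ a)) hWp).ker.subtype) (Vm (ρ a)) hWmK).ker
            * 2 ^ (finrank F (Vm (ρ a)) / 2)) * 2 ^ (finrank F (Vp (ρ a)) / 2) :=
          Nat.mul_le_mul_right _ ih2
      _ ≤ (Nat.card ρ.ker * 2 ^ (finrank F (Vm (ρ a)) / 2)) * 2 ^ (finrank F (Vp (ρ a)) / 2) :=
          Nat.mul_le_mul_right _ (Nat.mul_le_mul_right _ h5')
      _ = Nat.card ρ.ker * 2 ^ (finrank F (Vm (ρ a)) / 2 + finrank F (Vp (ρ a)) / 2) := by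
          rw [pow_add]; ring
      _ ≤ Nat.card ρ.ker * 2 ^ (n / 2) :=
          Nat.mul_le_mul_left _ (Nat.pow_le_pow_right (by norm_num) (by omega))

/-- groups of isometries all of whose squares are `±1` -/
theorem card_le_aux (h2 : (2 : F) ≠ 0) : ∀ (n : ℕ) (G : Type u) [Group G] [Finite G]
    (V : Type v) [AddCommGroup V] [Module F V] [FiniteDimensional F V] (ω : V → V → F)
    (_ : AltForm ω) (ρ : G →* Module.End F V) (_ : PreRep ω ρ),
    finrank F V = n → 2 ≤ n → Nat.card G ≤ Nat.card ρ.ker * 2 ^ (2 * (n / 2) + 1) ∧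
      (6 ≤ n → Nat.card G ≤ Nat.card ρ.ker * 2 ^ (2 * (n / 2) - 1)) := by
  intro n
  induction n using Nat.strong_induction_on with
  | _ n ih =>
  intro G _ _ V _ _ _ ω hω ρ hρ hn hn2
  have hnt : Nontrivial V := by
    rw [← Module.finrank_pos_iff (R := F)]
    omega
  have hne := neg_one_ne_one (V := V) h2
  by_cases hc : ∃ a x, ρ (a * a) = 1 ∧ ρ x * ρ a ≠ ρ a * ρ x
  · obtain ⟨a, x, ha, hxa⟩ := hc
    have hAA : ρ a * ρ a = 1 := by rw [← map_mul]; exact ha
    have hXA : ρ x * ρ a = -(ρ a * ρ x) := (comm_or_anti hρ x a).resolve_left hxa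
    have hAX : ρ a * ρ x = -(ρ x * ρ a) := by rw [hXA, neg_neg]
    -- the centralizer of `a`
    let C : Subgroup G :=
      { carrier := {g | ρ g * ρ a = ρ a * ρ g}
        mul_mem' := by
          intro g h hg hh
          show ρ (g * h) * ρ a = ρ a * ρ (g * h)
          rw [map_mul, mul_assoc, (hh : ρ h * ρ a = ρ a * ρ h), ← mul_assoc,
            (hg : ρ g * ρ a = ρ a * ρ g), mul_assoc]
        one_mem' := by
          show ρ 1 * ρ a = ρ a * ρ 1
          rw [map_one, one_mul, mul_one]
        inv_mem' := by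
          intro g hg
          show ρ g⁻¹ * ρ a = ρ a * ρ g⁻¹
          have hg' : ρ g * ρ a = ρ a * ρ g := hg
          calc ρ g⁻¹ * ρ a = ρ g⁻¹ * ρ a * (ρ g * ρ g⁻¹) := by
                rw [← map_mul ρ g, mul_inv_cancel, map_one, mul_one]
            _ = ρ g⁻¹ * (ρ a * ρ g) * ρ g⁻¹ := by simp only [mul_assoc]
            _ = ρ g⁻¹ * (ρ g * ρ a) * ρ g⁻¹ := by rw [hg']
            _ = (ρ g⁻¹ * ρ g) * ρ a * ρ g⁻¹ := by simp only [mul_assoc]
            _ = ρ a * ρ g⁻¹ := by rw [← map_mul, inv_mul_cancel, map_one, one_mul] }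
    have hCmem : ∀ g, g ∈ C ↔ ρ g * ρ a = ρ a * ρ g := fun g => Iff.rfl
    have hidx : Nat.card G ≤ 2 * Nat.card C := by
      have := card_le_cover (X := G) (Y := G) (ι := Bool) (C : Set G)
        (fun b g => if b then g ∈ C else g * x ∈ C) (fun b g => if b then g else g * x)
        (by
          intro b g hb
          cases b
          · simpa using hb
          · simpa using hb)
        (by
          intro b y y' _ _ h
          cases b
          · simpa using h
          · simpa using h)
        (by
          intro g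
          rcases comm_or_anti hρ g a with h | h
          · exact ⟨true, by simpa using (hCmem g).mpr h⟩
          · refine ⟨false, ?_⟩
            have : g * x ∈ C := by
              rw [hCmem, map_mul, mul_assoc, hXA, mul_neg, ← mul_assoc, h, neg_mul, neg_neg,
                mul_assoc]
            simpa using this)
      rwa [Fintype.card_bool] at this
    -- `x` swaps the eigenspaces
    have hXpm : ∀ v ∈ Vp (ρ a), ρ x v ∈ Vm (ρ a) := by
      intro v hv
      rw [mem_Vp] at hv
      rw [mem_Vm]
      have := congrArg (fun f : Module.End F V => f v) hAX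
      simp only [Module.End.mul_apply, LinearMap.neg_apply] at this
      rw [this, hv]
    have hXmp : ∀ v ∈ Vm (ρ a), ρ x v ∈ Vp (ρ a) := by
      intro v hv
      rw [mem_Vm] at hv
      rw [mem_Vp]
      have := congrArg (fun f : Module.End F V => f v) hAX
      simp only [Module.End.mul_apply, LinearMap.neg_apply] at this
      rw [this, hv, map_neg, neg_neg]
    have hXinj : Function.Injective (ρ x) := by
      intro v w hvw
      have h3 : ρ (x * x) v = ρ (x * x) w := by
        rw [map_mul, Module.End.mul_apply, Module.End.mul_apply, hvw]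
      rcases hρ.sq x with h | h
      · rw [h] at h3
        simpa using h3
      · rw [h] at h3
        simpa using h3
    have hle1 : finrank F (Vp (ρ a)) ≤ finrank F (Vm (ρ a)) :=
      LinearMap.finrank_le_finrank_of_injective (f := (ρ x).restrict hXpm) (by
        intro v w hvw
        apply Subtype.ext
        apply hXinj
        exact congrArg Subtype.val hvw)
    have hle2 : finrank F (Vm (ρ a)) ≤ finrank F (Vp (ρ a)) :=
      LinearMap.finrank_le_finrank_of_injective (f := (ρ x).restrict hXmp) (by
        intro v w hvw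
        apply Subtype.ext
        apply hXinj
        exact congrArg Subtype.val hvw)
    have hsum := finrank_add (V := V) h2 hAA
    have hWp : ∀ c : C, ∀ v ∈ Vp (ρ a), (ρ.comp C.subtype) c v ∈ Vp (ρ a) := by
      intro c v hv
      rw [mem_Vp] at hv ⊢
      have := congrArg (fun f : Module.End F V => f v) ((hCmem c).mp c.2)
      simp only [Module.End.mul_apply] at this
      show ρ a (ρ c v) = ρ c v
      rw [← this, hv]
    have hωp : AltForm (restr ω (Vp (ρ a))) := altForm_restr hω (Vp (ρ a)) (Vm (ρ a))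
      (decomp h2 hAA) (fun p hp m hm => (orth h2 hω (hρ.iso a) hp hm).1)
    have hk2 : 2 ≤ finrank F (Vp (ρ a)) := by
      have := hωp.finrank_ne_one
      omega
    have ih1 := (ih (finrank F (Vp (ρ a))) (by omega) C (Vp (ρ a)) (restr ω (Vp (ρ a))) hωp
      (resHom (ρ.comp C.subtype) (Vp (ρ a)) hWp) (preRep_resHom (preRep_comp hρ _) _ _) rfl hk2).1
    have hker : Nat.card (resHom (ρ.comp C.subtype) (Vp (ρ a)) hWp).ker ≤ 2 * Nat.card ρ.ker := by
      have := card_le_cover (X := (resHom (ρ.comp C.subtype) (Vp (ρ a)) hWp).ker) (Y := G)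
        (ι := Bool) (ρ.ker : Set G)
        (fun b c => if b then ρ ((c : C) : G) = 1 else ρ (((c : C) : G) * a) = 1)
        (fun b c => if b then ((c : C) : G) else ((c : C) : G) * a)
        (by
          intro b c hb
          cases b
          · exact MonoidHom.mem_ker.mpr (by simpa using hb)
          · exact MonoidHom.mem_ker.mpr (by simpa using hb))
        (by
          intro b y y' _ _ h
          cases b
          · exact Subtype.ext (Subtype.ext (by simpa using h))
          · exact Subtype.ext (Subtype.ext (by simpa using h)))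
        (by
          intro c
          have hc1 : ∀ v ∈ Vp (ρ a), ρ ((c : C) : G) v = v :=
            (resHom_eq_one_iff (ρ.comp C.subtype) (Vp (ρ a)) hWp _).mp (MonoidHom.mem_ker.mp c.2)
          rcases comm_or_anti hρ x ((c : C) : G) with h | h
          · refine ⟨true, ?_⟩
            have : ρ ((c : C) : G) = 1 := by
              ext u
              obtain ⟨p, hp, m, hm, rfl⟩ := decomp h2 hAA u
              have h4 := congrArg (fun f : Module.End F V => f m) h
              simp only [Module.End.mul_apply] at h4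
              rw [hc1 _ (hXmp m hm)] at h4
              rw [map_add, hc1 p hp, hXinj h4, Module.End.one_apply]
            simpa using this
          · refine ⟨false, ?_⟩
            have : ρ (((c : C) : G) * a) = 1 := by
              ext u
              obtain ⟨p, hp, m, hm, rfl⟩ := decomp h2 hAA u
              have h4 := congrArg (fun f : Module.End F V => f m) h
              simp only [Module.End.mul_apply, LinearMap.neg_apply] at h4
              rw [hc1 _ (hXmp m hm), ← map_neg] at h4
              have h5 := hXinj h4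
              rw [map_mul, Module.End.mul_apply, map_add, mem_Vp.mp hp, mem_Vm.mp hm, map_add,
                hc1 p hp, map_neg, h5, neg_neg, Module.End.one_apply]
            simpa using this)
      rwa [Fintype.card_bool] at this
    have htot : Nat.card G ≤ Nat.card ρ.ker * 2 ^ (2 * (finrank F (Vp (ρ a)) / 2) + 3) := by
      calc Nat.card G ≤ 2 * Nat.card C := hidx
        _ ≤ 2 * (Nat.card (resHom (ρ.comp C.subtype) (Vp (ρ a)) hWp).ker *
              2 ^ (2 * (finrank F (Vp (ρ a)) / 2) + 1)) := Nat.mul_le_mul_left _ ih1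
        _ ≤ 2 * ((2 * Nat.card ρ.ker) * 2 ^ (2 * (finrank F (Vp (ρ a)) / 2) + 1)) :=
            Nat.mul_le_mul_left _ (Nat.mul_le_mul_right _ hker)
        _ = Nat.card ρ.ker * 2 ^ (2 * (finrank F (Vp (ρ a)) / 2) + 3) := by
            rw [pow_add, pow_add]; ring
    constructor
    · exact le_trans htot (Nat.mul_le_mul_left _ (Nat.pow_le_pow_right (by norm_num) (by omega)))
    · intro h6
      exact le_trans htot (Nat.mul_le_mul_left _ (Nat.pow_le_pow_right (by norm_num) (by omega)))
  · have hcen : ∀ a x, ρ (a * a) = 1 → ρ x * ρ a = ρ a * ρ x := by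
      intro a x ha
      by_contra h
      exact hc ⟨a, x, ha, h⟩
    let A : Subgroup G :=
      { carrier := {g | ρ (g * g) = 1}
        mul_mem' := by
          intro a b ha hb
          show ρ (a * b * (a * b)) = 1
          have ha' : ρ (a * a) = 1 := ha
          have hb' : ρ (b * b) = 1 := hb
          calc ρ (a * b * (a * b)) = ρ a * (ρ b * ρ a) * ρ b := by simp only [map_mul, mul_assoc]
            _ = ρ a * (ρ a * ρ b) * ρ b := by rw [hcen a b ha']
            _ = ρ (a * a) * ρ (b * b) := by simp only [map_mul, mul_assoc]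
            _ = 1 := by rw [ha', hb', mul_one]
        one_mem' := by
          show ρ (1 * 1) = 1
          rw [one_mul, map_one]
        inv_mem' := by
          intro g hg
          show ρ (g⁻¹ * g⁻¹) = 1
          have hg' : ρ (g * g) = 1 := hg
          calc ρ (g⁻¹ * g⁻¹) = ρ (g⁻¹ * g⁻¹) * ρ (g * g) := by rw [hg', mul_one]
            _ = ρ (g⁻¹ * g⁻¹ * (g * g)) := (map_mul _ _ _).symm
            _ = 1 := by rw [show g⁻¹ * g⁻¹ * (g * g) = 1 by group, map_one] }
    have hAmem : ∀ g, g ∈ A ↔ ρ (g * g) = 1 := fun g => Iff.rfl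
    have hnotA : ∀ g, g ∉ A → ρ (g * g) = -1 := fun g hg => (hρ.sq g).resolve_left hg
    have hab : ∀ x y, x ∉ A → y ∉ A → (x * y ∈ A ↔ ρ x * ρ y = ρ y * ρ x) := by
      intro x y hx hy
      have hx' := hnotA x hx
      have hy' := hnotA y hy
      rw [map_mul] at hx' hy'
      have e : ρ (x * y * (x * y)) = ρ x * (ρ y * ρ x) * ρ y := by simp only [map_mul, mul_assoc]
      rw [hAmem, e]
      constructor
      · intro h
        rcases comm_or_anti hρ x y with h' | h'
        · exact h'
        · exfalso
          have h'' : ρ y * ρ x = -(ρ x * ρ y) := by rw [h', neg_neg]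
          have h3 : ρ x * (ρ y * ρ x) * ρ y = -1 := by
            calc ρ x * (ρ y * ρ x) * ρ y = ρ x * (-(ρ x * ρ y)) * ρ y := by rw [h'']
              _ = -((ρ x * ρ x) * (ρ y * ρ y)) := by simp only [mul_neg, neg_mul, mul_assoc]
              _ = -1 := by rw [hx', hy']; simp
          exact hne (h3.symm.trans h)
      · intro h
        calc ρ x * (ρ y * ρ x) * ρ y = ρ x * (ρ x * ρ y) * ρ y := by rw [h]
          _ = (ρ x * ρ x) * (ρ y * ρ y) := by simp only [mul_assoc]
          _ = 1 := by rw [hx', hy']; simp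
    have hQ4 : ∃ t : Fin 4 → G, ∀ z, ∃ i, z * t i ∈ A := by
      by_cases hall : ∀ g, g ∈ A
      · exact ⟨fun _ => 1, fun z => ⟨0, by rw [mul_one]; exact hall z⟩⟩
      · obtain ⟨x, hx⟩ := not_forall.mp hall
        by_cases hy : ∃ y, y ∉ A ∧ x * y ∉ A
        · obtain ⟨y, hy, hxy⟩ := hy
          refine ⟨![1, x, y, x * y], fun z => ?_⟩
          by_cases hz : z ∈ A
          · exact ⟨0, by simpa using hz⟩
          rcases comm_or_anti hρ z x with h | h
          · exact ⟨1, by simpa using (hab z x hz hx).mpr h⟩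
          rcases comm_or_anti hρ z y with h' | h'
          · exact ⟨2, by simpa using (hab z y hz hy).mpr h'⟩
          · refine ⟨3, ?_⟩
            have : ρ z * ρ (x * y) = ρ (x * y) * ρ z := by
              calc ρ z * ρ (x * y) = (ρ z * ρ x) * ρ y := by rw [map_mul, mul_assoc]
                _ = -(ρ x * (ρ z * ρ y)) := by rw [h]; simp only [neg_mul, mul_assoc]
                _ = ρ x * ρ y * ρ z := by rw [h']; simp only [mul_neg, neg_neg, mul_assoc]
                _ = ρ (x * y) * ρ z := by rw [map_mul]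
            simpa using (hab z (x * y) hz hxy).mpr this
        · have hy' : ∀ y, y ∉ A → x * y ∈ A := by
            intro y hyA
            by_contra h
            exact hy ⟨y, hyA, h⟩
          refine ⟨![1, x, 1, 1], fun z => ?_⟩
          by_cases hz : z ∈ A
          · exact ⟨0, by simpa using hz⟩
          · refine ⟨1, ?_⟩
            have h1 := (hab x z hx hz).mp (hy' z hz)
            simpa using (hab z x hz hx).mpr h1.symm
    obtain ⟨t, ht⟩ := hQ4
    have h4 : Nat.card G ≤ 4 * Nat.card A := by
      have := card_le_cover (X := G) (Y := G) (ι := Fin 4) (A : Set G) (fun i g => g * t i ∈ A)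
        (fun i g => g * t i) (fun i g h => h) (fun i y y' _ _ h => mul_right_cancel h) ht
      rwa [Fintype.card_fin] at this
    have hEA := card_le_of_sq_one h2 n A V ω hω (ρ.comp A.subtype) (preRep_comp hρ _)
      (fun g => by
        show ρ ((g * g : A) : G) = 1
        rw [Subgroup.coe_mul]
        exact g.2) hn
    have h6 : Nat.card (ρ.comp A.subtype).ker ≤ Nat.card ρ.ker := by
      have := card_le_cover (X := (ρ.comp A.subtype).ker) (Y := G) (ι := Unit) (ρ.ker : Set G)
        (fun _ _ => True) (fun _ k => ((k : A) : G)) (fun _ k _ => MonoidHom.mem_ker.mp k.2)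
        (fun _ y y' _ _ h => Subtype.ext (Subtype.ext h)) (fun _ => ⟨(), trivial⟩)
      rwa [Fintype.card_unit, one_mul] at this
    have htot : Nat.card G ≤ Nat.card ρ.ker * 2 ^ (n / 2 + 2) := by
      calc Nat.card G ≤ 4 * Nat.card A := h4
        _ ≤ 4 * (Nat.card (ρ.comp A.subtype).ker * 2 ^ (n / 2)) := Nat.mul_le_mul_left _ hEA
        _ ≤ 4 * (Nat.card ρ.ker * 2 ^ (n / 2)) :=
            Nat.mul_le_mul_left _ (Nat.mul_le_mul_right _ h6)
        _ = Nat.card ρ.ker * 2 ^ (n / 2 + 2) := by rw [pow_add]; ring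
    constructor
    · exact le_trans htot (Nat.mul_le_mul_left _ (Nat.pow_le_pow_right (by norm_num) (by omega)))
    · intro h6'
      exact le_trans htot (Nat.mul_le_mul_left _ (Nat.pow_le_pow_right (by norm_num) (by omega)))

/-- **Main bound.** A finite group of isometries of a nondegenerate alternating form in
dimension `n ≥ 6`, all of whose squares are `±1`, has order at most `2^(2⌊n/2⌋-1)`. -/
theorem card_le_main (h2 : (2 : F) ≠ 0) {G : Type u} [Group G] [Finite G] {V : Type v}
    [AddCommGroup V] [Module F V] [FiniteDimensional F V] {ω : V → V → F} (hω : AltForm ω)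
    (ρ : G →* Module.End F V) (hρ : PreRep ω ρ) (hinj : Function.Injective ρ)
    (hn : 6 ≤ finrank F V) : Nat.card G ≤ 2 ^ (2 * (finrank F V / 2) - 1) := by
  have h := (card_le_aux h2 _ G V ω hω ρ hρ rfl (by omega)).2 hn
  have hk : ρ.ker = ⊥ := by
    rw [eq_bot_iff]
    intro k hk
    rw [Subgroup.mem_bot]
    apply hinj
    rw [MonoidHom.mem_ker.mp hk, map_one]
  rwa [hk, Subgroup.card_bot, one_mul] at h

end main

end Cfsg.Agent.Lib.Helper5.TwoRankSp
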